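import Cfsg.Agent.Lib.TwoPointAltFour.Common

/-!
Recognition of the affine group of the plane of order four from a regular normal subgroup of
order sixteen and an element of order three of the point stabiliser.
-/

set_option autoImplicit false

open MulAction Polynomial

namespace CfsgLib.TwoPointAltFour

/-- The polynomial defining the field of order four. -/
noncomputable def fourPoly : (ZMod 2)[X] := X ^ 2 + X + 1

theorem fourPoly_natDegree : fourPoly.natDegree = 2 := by
  unfold fourPoly; compute_degree!

theorem fourPoly_monic : fourPoly.Monic := by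
  unfold fourPoly; monicity!

theorem fourPoly_irreducible : Irreducible fourPoly := by
  refine (fourPoly_monic.irreducible_iff_roots_eq_zero_of_degree_le_three
    (by rw [fourPoly_natDegree]) (by rw [fourPoly_natDegree]; decide)).2
    (Multiset.eq_zero_of_forall_notMem fun r hr => ?_)
  have h := (mem_roots fourPoly_monic.ne_zero).1 hr
  rw [IsRoot.def, fourPoly] at h
  simp only [eval_add, eval_pow, eval_X, eval_one] at h
  clear hr
  revert h
  revert r
  decide

/-- The field of order four. -/
abbrev FourField := AdjoinRoot fourPoly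

theorem isoAGL_of_regular {G Ω : Type*} [Group G] [Finite G] [MulAction G Ω] [FaithfulSMul G Ω]
    [Finite Ω] (a : Ω) (T : Subgroup G) [T.Normal] (hcomm : ∀ x ∈ T, ∀ y ∈ T, x * y = y * x)
    (hexp : ∀ x ∈ T, x * x = 1) (hT : Nat.card T = 16) (hreg : ∀ c : Ω, ∃ τ ∈ T, τ • a = c)
    (hfree : ∀ τ ∈ T, τ • a = a → τ = 1) (w : G) (hw3 : w * w * w = 1)
    (hwc : ∀ h : G, h • a = a → h * w = w * h)
    (hwf : ∀ τ ∈ T, w * τ * w⁻¹ = τ → τ = 1) (hG : Nat.card G = 2880) : IsoAGL G Ω := by
  classical
  letI : CommGroup ↥T :=
    { (inferInstance : Group ↥T) with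
      mul_comm := fun x y => Subtype.ext (hcomm _ x.2 _ y.2) }
  letI : Module (ZMod 2) (Additive ↥T) := AddCommGroup.zmodModule fun x => by
    rw [two_nsmul]; exact Subtype.ext (hexp _ (Additive.toMul x).2)
  let L : G → Module.End (ZMod 2) (Additive ↥T) := fun g =>
    (MonoidHom.toAdditive (MulAut.conjNormal (H := T) g).toMonoidHom).toZModLinearMap 2
  have hLv : ∀ (g : G) (x : Additive ↥T), ((Additive.toMul (L g x) : ↥T) : G) =
      g * (Additive.toMul x : ↥T) * g⁻¹ := fun g x => MulAut.conjNormal_apply g _
  have hW : L w * L w + L w + 1 = 0 := by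
    refine LinearMap.ext fun x => ?_
    set y : Additive ↥T := (L w * L w + L w + 1) x with hy
    have h2 : L w y = y := by
      have h3 : L w (L w (L w x)) = x := by
        refine Subtype.ext ?_
        show ((Additive.toMul (L w (L w (L w x))) : ↥T) : G) = (Additive.toMul x : ↥T)
        rw [hLv, hLv, hLv]
        calc _ = (w * w * w) * ((Additive.toMul x : ↥T) : G) * (w * w * w)⁻¹ := by group
          _ = _ := by rw [hw3]; group
      rw [hy]
      simp only [LinearMap.add_apply, Module.End.mul_apply, Module.End.one_apply, map_add, h3]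
      abel
    refine Subtype.ext (hwf _ (Additive.toMul y).2 ?_)
    exact (hLv w y).symm.trans (congrArg (fun z => ((Additive.toMul z : ↥T) : G)) h2)
  let W := L w
  have hker : ∀ q ∈ Ideal.span {fourPoly}, (aeval W).toRingHom q = 0 := by
    intro q hq
    obtain ⟨r, rfl⟩ := Ideal.mem_span_singleton.1 hq
    show aeval W (fourPoly * r) = 0
    rw [map_mul, fourPoly, map_add, map_add, map_pow, aeval_X, map_one, pow_two, hW, zero_mul]
  let ρ : FourField →+* Module.End (ZMod 2) (Additive ↥T) :=
    Ideal.Quotient.lift (Ideal.span {fourPoly}) (aeval W).toRingHom hker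
  haveI : Fact (Irreducible fourPoly) := ⟨fourPoly_irreducible⟩
  haveI : Module.Finite (ZMod 2) FourField :=
    (AdjoinRoot.powerBasis fourPoly_monic.ne_zero).finite
  haveI : Finite FourField := Module.finite_of_finite (ZMod 2)
  letI : Fintype FourField := Fintype.ofFinite _
  have hq : Nat.card FourField = 4 := by
    rw [Module.natCard_eq_pow_finrank (K := ZMod 2), Nat.card_zmod,
      (AdjoinRoot.powerBasis fourPoly_monic.ne_zero).finrank, AdjoinRoot.powerBasis_dim,
      fourPoly_natDegree]
    rfl
  letI : Module FourField (Additive ↥T) := Module.compHom _ ρ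
  haveI : Module.Finite FourField (Additive ↥T) := Module.Finite.of_finite
  have hr : Module.finrank FourField (Additive ↥T) = 2 := by
    have h := Module.natCard_eq_pow_finrank (K := FourField) (V := Additive ↥T)
    rw [hq, show Nat.card (Additive ↥T) = 4 ^ 2 from hT] at h
    exact (Nat.pow_right_injective (le_refl 2 |>.trans (by norm_num : 2 ≤ 4)) h).symm
  -- conjugation is linear over the field
  have hLW : ∀ g : G, Commute (L g) W := fun g => by
    obtain ⟨τ, hτ, hτa⟩ := hreg (g • a)
    have hh : (τ⁻¹ * g) • a = a := by rw [mul_smul, ← hτa, inv_smul_smul]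
    have hc := hwc _ hh
    have key : ∀ x ∈ T, g * x * g⁻¹ = (τ⁻¹ * g) * x * (τ⁻¹ * g)⁻¹ := fun x hx => by
      calc g * x * g⁻¹ = τ * ((τ⁻¹ * g) * x * (τ⁻¹ * g)⁻¹) * τ⁻¹ := by group
        _ = _ := by
          rw [hcomm τ hτ _ (Subgroup.Normal.conj_mem inferInstance x hx _), mul_inv_cancel_right]
    refine LinearMap.ext fun x => Subtype.ext ?_
    show ((Additive.toMul (L g (L w x)) : ↥T) : G) = (Additive.toMul (L w (L g x)) : ↥T)
    rw [hLv, hLv, hLv, hLv, key _ (Subgroup.Normal.conj_mem inferInstance _ (Additive.toMul x).2 _),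
      key _ (Additive.toMul x).2]
    calc _ = ((τ⁻¹ * g) * w) * ((Additive.toMul x : ↥T) : G) * ((τ⁻¹ * g) * w)⁻¹ := by group
      _ = (w * (τ⁻¹ * g)) * ((Additive.toMul x : ↥T) : G) * (w * (τ⁻¹ * g))⁻¹ := by rw [hc]
      _ = _ := by group
  have hLF : ∀ (g : G) (c : FourField) (x : Additive ↥T), L g (c • x) = c • L g x := by
    intro g c x
    obtain ⟨q, rfl⟩ := AdjoinRoot.mk_surjective c
    have hq' : Commute (L g) (aeval W q) := by
      induction q using Polynomial.induction_on' with
      | add p r hp hr' => rw [map_add]; exact hp.add_right hr'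
      | monomial n r =>
        rw [aeval_monomial]
        exact (Algebra.commute_algebraMap_right r _).mul_right ((hLW g).pow_right n)
    exact LinearMap.congr_fun hq'.eq x
  let e : Additive ↥T ≃ₗ[FourField] (Fin 2 → FourField) :=
    LinearEquiv.ofFinrankEq _ _ (by rw [hr, Module.finrank_fin_fun])
  let π : Additive ↥T → Ω := fun x => ((Additive.toMul x : ↥T) : G) • a
  have hπ : Function.Bijective π := by
    refine ⟨fun x y h => ?_, fun c => ?_⟩
    · refine Subtype.ext (inv_mul_eq_one.1 (hfree _ (T.mul_mem (T.inv_mem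
        (Additive.toMul x).2) (Additive.toMul y).2) ?_))
      exact (mul_smul _ _ _).trans (inv_smul_eq_iff.2 h.symm)
    · obtain ⟨τ, hτ, h⟩ := hreg c
      exact ⟨Additive.ofMul ⟨τ, hτ⟩, h⟩
  let β : (Fin 2 → FourField) ≃ Ω := e.symm.toEquiv.trans (Equiv.ofBijective π hπ)
  let A : G → ((Fin 2 → FourField) ≃ₗ[FourField] (Fin 2 → FourField)) := fun g =>
    (e.symm.trans
      { toFun := L g
        invFun := L g⁻¹
        map_add' := (L g).map_add
        map_smul' := fun c x => hLF g c x
        left_inv := fun x => Subtype.ext (by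
          show ((Additive.toMul (L g⁻¹ (L g x)) : ↥T) : G) = (Additive.toMul x : ↥T)
          rw [hLv, hLv]; group)
        right_inv := fun x => Subtype.ext (by
          show ((Additive.toMul (L g (L g⁻¹ x)) : ↥T) : G) = (Additive.toMul x : ↥T)
          rw [hLv, hLv]; group) }).trans e
  let φ : G → ((Fin 2 → FourField) ≃ᵃ[FourField] (Fin 2 → FourField)) := fun g =>
    { toEquiv := (β.trans (MulAction.toPerm g)).trans β.symm
      linear := A g
      map_vadd' := fun p v => by
        show β.symm (g • β (v + p)) = A g v + β.symm (g • β p)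
        obtain ⟨x, hx⟩ := hπ.2 (g • β p)
        have h2 : β.symm (g • β p) = e x := by rw [← hx, Equiv.symm_apply_eq]; simp [β]
        rw [h2, Equiv.symm_apply_eq]
        show g • π (e.symm (v + p)) = π (e.symm (e (L g (e.symm v)) + e x))
        rw [← map_add e, e.symm_apply_apply, map_add]
        show g • (((Additive.toMul (e.symm v) : ↥T) : G) * (Additive.toMul (e.symm p) : ↥T)) • a =
          (((Additive.toMul (L g (e.symm v)) : ↥T) : G) * (Additive.toMul x : ↥T)) • a
        rw [mul_smul _ ((Additive.toMul x : ↥T) : G), show ((Additive.toMul x : ↥T) : G) • a = _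
          from hx, hLv, ← mul_smul, ← mul_smul]
        show _ = (g * ((Additive.toMul (e.symm v) : ↥T) : G) * g⁻¹ * g) •
          ((Additive.toMul (e.symm p) : ↥T) : G) • a
        rw [inv_mul_cancel_right, ← mul_smul, mul_assoc] }
  have hinj : Function.Injective φ := fun g g' h => eq_of_smul_eq_smul fun c : Ω => by
    obtain ⟨p, rfl⟩ := β.surjective c
    exact β.symm.injective (congrArg (fun f => f p) h)
  have hmul : ∀ g g', φ (g * g') = φ g * φ g' := fun g g' => AffineEquiv.ext fun p => by
    show β.symm ((g * g') • β p) = β.symm (g • β (β.symm (g' • β p)))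
    rw [Equiv.apply_symm_apply, mul_smul]
  have hcard : Nat.card ((Fin 2 → FourField) ≃ᵃ[FourField] (Fin 2 → FourField)) = 2880 := by
    let s : ((Fin 2 → FourField) ≃ᵃ[FourField] (Fin 2 → FourField)) ≃
        (Fin 2 → FourField) × ((Fin 2 → FourField) ≃ₗ[FourField] (Fin 2 → FourField)) :=
      { toFun := fun f => (f 0, f.linear)
        invFun := fun z => z.2.toAffineEquiv.trans
          (AffineEquiv.constVAdd FourField (Fin 2 → FourField) z.1)
        left_inv := fun f => AffineEquiv.ext fun p => by
          have := f.map_vadd 0 p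
          simp only [vadd_eq_add, add_zero] at this
          show f 0 + f.linear p = f p
          rw [this, add_comm]
        right_inv := fun z => by
          refine Prod.ext ?_ ?_
          · simp
          · exact LinearEquiv.ext fun x => rfl }
    rw [Nat.card_congr s, Nat.card_prod,
      ← Nat.card_congr ((Matrix.GeneralLinearGroup.toLin (n := Fin 2) (R := FourField)).trans
        (LinearMap.GeneralLinearGroup.generalLinearEquiv FourField _)).toEquiv,
      Matrix.card_GL_field, Nat.card_fun, hq, Nat.card_fin, ← Nat.card_eq_fintype_card, hq,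
      Fin.prod_univ_two]
    rfl
  haveI : Finite ((Fin 2 → FourField) ≃ᵃ[FourField] (Fin 2 → FourField)) :=
    Nat.finite_of_card_ne_zero (by rw [hcard]; decide)
  have hΩ : Nat.card Ω = 16 := (Nat.card_eq_of_bijective π hπ).symm.trans hT
  exact ⟨hΩ, FourField, inferInstance, inferInstance, by rw [← Nat.card_eq_fintype_card, hq],
    ⟨MulEquiv.ofBijective (MonoidHom.mk' φ hmul)
      ((Nat.bijective_iff_injective_and_card φ).2 ⟨hinj, hG.trans hcard.symm⟩)⟩⟩

end CfsgLib.TwoPointAltFour
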