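import Cfsg.Agent.Lib.TwoPointAltFour.Swappers
import Cfsg.Agent.Lib.CoreFree.OddCommCriterion
import Cfsg.Agent.Lib.Involutions.BrauerSuzuki

/-!
Doubly transitive groups with two-point stabiliser `A₄`: facts shared by the different cases.
-/

set_option autoImplicit false

open MulAction

namespace CfsgLib.TwoPointAltFour

/-- The group is the product of an involution centraliser and the odd core. -/
def Isolated (G : Type*) [Group G] : Prop :=
  ∃ J : G, orderOf J = 2 ∧ Subgroup.centralizer ({J} : Set G) ⊔ Cfsg.oddCore G = ⊤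

/-- The group is the affine group of the plane of order four. -/
def IsoAGL (G Ω : Type*) [Group G] : Prop :=
  Nat.card Ω = 16 ∧ ∃ (F : Type) (_ : Field F) (_ : Fintype F), Fintype.card F = 4 ∧
    Nonempty (G ≃* ((Fin 2 → F) ≃ᵃ[F] (Fin 2 → F)))

namespace Ctx

variable {G Ω : Type*} [Group G] [MulAction G Ω] (C : Ctx G Ω)

/-- The involution `t` has no fixed point outside those of `V`. -/
def CaseA : Prop := C.Δ ⊆ C.F

include C

theorem card_Δ_of_caseA (h : C.CaseA) : Nat.card C.Δ = Nat.card C.F := by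
  rw [le_antisymm (show C.Δ ≤ C.F from h) C.F_subset]

theorem parity_of_invol [Finite Ω] (σ : Equiv.Perm Ω) (h : ∀ c, σ (σ c) = c) :
    Nat.card Ω % 2 = Nat.card {c : Ω // σ c = c} % 2 := by
  classical
  haveI := Fintype.ofFinite Ω
  haveI : Fact (Nat.Prime 2) := ⟨Nat.prime_two⟩
  let f : Function.End Ω := ⇑σ
  have h' : f ^ 2 ^ 1 = 1 := by
    rw [pow_one, pow_two]
    funext c
    exact h c
  have := Equiv.Perm.card_fixedPoints_modEq (p := 2) h'
  rw [Nat.card_eq_fintype_card, Nat.card_eq_fintype_card, this]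
  congr 1

theorem parity_k [Finite Ω] : Nat.card Ω % 2 = Nat.card C.Δ % 2 :=
  C.parity_of_invol (MulAction.toPerm C.t) fun c => by
    show C.t • C.t • c = c
    rw [← mul_smul, C.t_sq, one_smul]

theorem v_mem_Δ {c : Ω} (hc : c ∈ C.Δ) : C.v • c ∈ C.Δ :=
  C.smul_mem_Δ C.commute_t_v.symm.eq hc

theorem parity_f [Finite Ω] : Nat.card C.Δ % 2 = Nat.card C.F % 2 := by
  classical
  haveI := Fintype.ofFinite Ω
  haveI : Fact (Nat.Prime 2) := ⟨Nat.prime_two⟩
  let f : Function.End C.Δ := fun c => ⟨C.v • (c : Ω), C.v_mem_Δ c.2⟩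
  have hf : f ^ 2 ^ 1 = 1 := by
    rw [pow_one, pow_two]
    funext c
    refine Subtype.ext ?_
    show C.v • C.v • (c : Ω) = c
    rw [← mul_smul, C.v_sq, one_smul]
  have := Equiv.Perm.card_fixedPoints_modEq (p := 2) hf
  rw [Nat.card_eq_fintype_card, this]
  congr 1
  rw [← Nat.card_eq_fintype_card]
  exact Nat.card_congr
    ⟨fun c => ⟨c.1.1, c.1.2, congrArg Subtype.val c.2⟩, fun c => ⟨⟨c.1, c.2.1⟩, Subtype.ext c.2.2⟩,
      fun c => rfl, fun c => rfl⟩

/-- An involution not conjugate to `t` fixes at most one point. -/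
theorem fix_le_one {i : G} (hi : i * i = 1) (hi1 : i ≠ 1) (hit : ¬ IsConj C.t i) {c d : Ω}
    (hc : i • c = c) (hd : i • d = d) : c = d := by
  by_contra h
  exact hit (C.isConj_of_fix hi hi1 h hc hd)

/-- In the direct case with `N = 3` and an odd number of points, some involution is isolated. -/
theorem isolated_of_three [Finite G] [Finite Ω] [FaithfulSMul G Ω] (hD : C.IsDir) (hN : C.N = 3)
    (hn : Odd (Nat.card Ω)) : Isolated G := by
  classical
  obtain ⟨u, hua, hu2, huH⟩ := hD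
  have huS : u ∈ C.Swap := ⟨hu2, hua⟩
  have hu1 := C.swap_ne_one huS
  obtain ⟨hut, hutt⟩ : ¬ IsConj C.t u ∧ IsConj C.t (u * C.t) := by
    rcases C.N_dir hua hu2 huH with ⟨-, -, h⟩ | ⟨h1, h2, -⟩ | ⟨-, -, h⟩
    · omega
    · exact ⟨h1, h2⟩
    · omega
  have hconj : ∀ i, IsConj u i → i * i = 1 ∧ i ≠ 1 ∧ ¬ IsConj C.t i := fun i hi => by
    obtain ⟨g, rfl⟩ := isConj_iff.1 hi
    refine ⟨?_, fun h => hu1 ?_, fun h => hut (h.trans (isConj_iff.2 ⟨g, rfl⟩).symm)⟩
    · rw [show g * u * g⁻¹ * (g * u * g⁻¹) = g * (u * u) * g⁻¹ by group, hu2, mul_one,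
        mul_inv_cancel]
    · rw [show u = g⁻¹ * (g * u * g⁻¹) * g by group, h, mul_one, inv_mul_cancel]
  have hfix : ∀ i : {i : G // IsConj u i}, ∃ c : Ω, i.1 • c = c := by
    intro i
    by_contra h
    push Not at h
    have hpar := C.parity_of_invol (MulAction.toPerm i.1) fun c => by
      show i.1 • i.1 • c = c
      rw [← mul_smul, (hconj _ i.2).1, one_smul]
    haveI : IsEmpty {c : Ω // (MulAction.toPerm i.1) c = c} := ⟨fun c => h c.1 c.2⟩
    rw [Nat.card_of_isEmpty (α := {c : Ω // (MulAction.toPerm i.1) c = c}), Nat.zero_mod] at hpar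
    rw [Nat.odd_iff] at hn
    omega
  choose p hp using hfix
  have hpu : ∀ i : {i : G // IsConj u i}, ∀ c, i.1 • c = c → c = p i := fun i c hc =>
    C.fix_le_one (hconj _ i.2).1 (hconj _ i.2).2.1 (hconj _ i.2).2.2 hc (hp i)
  -- the conjugates of `u` moving a given pair
  have huniq : ∀ i i' : G, IsConj u i → IsConj u i' → ∀ c : Ω, i • c ≠ c →
      i' • c = i • c → i = i' := by
    intro i i' hi hi' c hc hcc
    obtain ⟨g, ga, gb⟩ := C.trans c (i • c) (Ne.symm hc)
    have key : ∀ j, IsConj u j → j • c = i • c → g⁻¹ * j * g = u := by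
      intro j hj hjc
      have hjS : g⁻¹ * j * g ∈ C.Swap := ⟨by
        rw [show g⁻¹ * j * g * (g⁻¹ * j * g) = g⁻¹ * (j * j) * g by group, (hconj j hj).1,
          mul_one, inv_mul_cancel], by rw [mul_smul, mul_smul, ga, hjc, inv_smul_eq_iff, gb]⟩
      obtain ⟨w, hw, he⟩ := (C.swap_iff_dir hua hu2 huH).1 hjS
      by_cases hw1 : w = 1
      · rw [he, hw1, mul_one]
      · exfalso
        refine hut ((hutt.trans (C.isConj_dir hua hu2 huH hw hw1)).trans ?_)
        rw [← he]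
        exact (isConj_iff.2 ⟨g, by group⟩).trans hj.symm
    have h1 := key i hi rfl
    have h2 := key i' hi' hcc
    exact mul_left_cancel (mul_right_cancel (h1.trans h2.symm))
  have htrans : ∀ c : Ω, ∃ g : G, g • C.a = c := fun c => by
    by_cases hc : c = C.a
    · exact ⟨1, by rw [one_smul, hc]⟩
    · obtain ⟨g, hg, -⟩ := C.trans c C.a hc
      exact ⟨g, hg⟩
  have hsurj : Function.Surjective p := by
    intro c
    let i₀ : {i : G // IsConj u i} := ⟨u, IsConj.refl u⟩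
    obtain ⟨g₁, h₁⟩ := htrans (p i₀)
    obtain ⟨g₂, h₂⟩ := htrans c
    let g := g₂ * g₁⁻¹
    have hg : g • p i₀ = c := by rw [mul_smul, ← h₁, inv_smul_smul, h₂]
    refine ⟨⟨g * u * g⁻¹, isConj_iff.2 ⟨g, rfl⟩⟩, (hpu _ c ?_).symm⟩
    show (g * u * g⁻¹) • c = c
    rw [mul_smul, mul_smul, ← hg, inv_smul_smul, hp i₀]
  -- at most `n` conjugates
  have hcard : Nat.card {i : G // IsConj u i} * (Nat.card Ω - 1) ≤
      Nat.card Ω * (Nat.card Ω - 1) := by
    haveI := Fintype.ofFinite Ω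
    haveI := Fintype.ofFinite G
    let f : (Σ i : {i : G // IsConj u i}, {c : Ω // i.1 • c ≠ c}) → {q : Ω × Ω // q.1 ≠ q.2} :=
      fun z => ⟨(z.2.1, z.1.1 • z.2.1), Ne.symm z.2.2⟩
    have hf : Function.Injective f := by
      rintro ⟨⟨i, hi⟩, c, hc⟩ ⟨⟨i', hi'⟩, c', hc'⟩ e
      have e' := congrArg Subtype.val e
      simp only [f, Prod.mk.injEq] at e'
      obtain ⟨rfl, e2⟩ := e'
      obtain rfl : i = i' := huniq i i' hi hi' c hc e2.symm
      rfl
    have h := Nat.card_le_card_of_injective f hf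
    have hm : ∀ i : {i : G // IsConj u i},
        Nat.card {c : Ω // i.1 • c ≠ c} = Nat.card Ω - 1 := fun i => by
      rw [Nat.card_eq_fintype_card, Fintype.card_subtype_compl, ← Nat.card_eq_fintype_card,
        ← Nat.card_eq_fintype_card]
      congr 1
      exact Nat.card_eq_one_iff_unique.2 ⟨⟨fun a b => Subtype.ext ((hpu i _ a.2).trans
        (hpu i _ b.2).symm)⟩, ⟨⟨p i, hp i⟩⟩⟩
    rw [Nat.card_sigma, Finset.sum_congr rfl (fun i _ => hm i), Finset.sum_const, Finset.card_univ,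
      smul_eq_mul, ← Nat.card_eq_fintype_card] at h
    refine h.trans (le_of_eq ?_)
    have e : {q : Ω × Ω // q.1 ≠ q.2} ≃ ↥((Finset.univ : Finset Ω).offDiag) :=
      Equiv.subtypeEquivRight fun q => by simp
    rw [Nat.card_congr e, Nat.card_eq_fintype_card, Fintype.card_coe, Finset.offDiag_card,
      Finset.card_univ, ← Nat.card_eq_fintype_card, Nat.mul_sub, mul_one]
  have hn2 : 1 < Nat.card Ω := by
    haveI : Nontrivial Ω := ⟨⟨C.a, C.b, C.hab⟩⟩
    exact Finite.one_lt_card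
  have hinj : Function.Injective p :=
    (Function.Surjective.bijective_of_nat_card_le hsurj
      (Nat.le_of_mul_le_mul_right hcard (by omega))).1
  have hu : orderOf u = 2 := orderOf_eq_prime (by rw [pow_two, hu2]) hu1
  refine ⟨u, hu, CoreFree.centralizer_sup_oddCore_eq_top hu fun g =>
    Involutions.zstar_theorem hu (CoreFree.oddComm_of_commuting_eq hu fun g hg => ?_) g⟩
  have hi : IsConj u (g * u * g⁻¹) := isConj_iff.2 ⟨g, rfl⟩
  refine congrArg Subtype.val (hinj (a₁ := ⟨_, hi⟩) (a₂ := ⟨u, IsConj.refl u⟩) ?_)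
  refine (hpu ⟨_, hi⟩ (p ⟨u, IsConj.refl u⟩) (hpu ⟨u, IsConj.refl u⟩ _ ?_)).symm
  show u • (g * u * g⁻¹) • p ⟨u, IsConj.refl u⟩ = (g * u * g⁻¹) • p ⟨u, IsConj.refl u⟩
  rw [← mul_smul, hg.eq, mul_smul, hp ⟨u, IsConj.refl u⟩]

/-! ### The symmetric case -/

theorem commute_centralizer {g : G}
    (hg : g ∈ Subgroup.centralizer ({C.t, C.v} : Set G)) :
    g * C.t = C.t * g ∧ g * C.v = C.v * g :=
  ⟨(Subgroup.mem_centralizer_iff.1 hg C.t (by simp)).symm,
    (Subgroup.mem_centralizer_iff.1 hg C.v (by simp)).symm⟩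

theorem centralizer_le_normalizer [Finite G] :
    Subgroup.centralizer ({C.t, C.v} : Set G) ≤ Subgroup.normalizer (C.V : Set G) := by
  intro g hg
  obtain ⟨h1, h2⟩ := C.commute_centralizer hg
  refine Subgroup.mem_normalizer_fintype fun h hh => ?_
  show g * h * g⁻¹ ∈ C.V
  rw [(C.commute_V h1 h2 hh).eq, mul_inv_cancel_right]
  exact hh

theorem exists_local {c d : Ω} [Finite G] (hc : c ∈ C.F) (hd : d ∈ C.F) (hcd : c ≠ d) :
    ∃ g : G, g * C.t = C.t * g ∧ g ∈ Subgroup.normalizer (C.V : Set G) ∧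
      g • C.a = c ∧ g • C.b = d := by
  obtain ⟨g, h0, h1, h2⟩ := C.witt (C.F_subset hc) (C.F_subset hd) hcd
  exact ⟨g, h0, C.mem_normalizer_of_F (h1 ▸ hc) (h2 ▸ hd), h1, h2⟩

theorem card_local [Finite G] [Finite Ω] :
    Nat.card (Subgroup.centralizer ({C.t} : Set G) ⊓ Subgroup.normalizer (C.V : Set G) :
      Subgroup G) = 4 * Nat.card C.F * (Nat.card C.F - 1) := by
  have h := C.card_eq_pairs
    (Subgroup.centralizer ({C.t} : Set G) ⊓ Subgroup.normalizer (C.V : Set G)) C.F C.a_mem_F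
    C.b_mem_F (fun g hg c hc => C.smul_mem_F hg.2 hc) fun c hc d hd hcd => by
      obtain ⟨g, h0, h1, h2, h3⟩ := C.exists_local hc hd hcd
      exact ⟨g, ⟨Subgroup.mem_centralizer_singleton_iff.2 h0, h1⟩, h2, h3⟩
  rw [show (Subgroup.centralizer ({C.t} : Set G) ⊓ Subgroup.normalizer (C.V : Set G) ⊓ C.H :
      Subgroup G) = C.V by
    rw [inf_assoc, inf_eq_right.2 C.H_le_normalizer, C.centralizer_inf_H], C.card_V] at h
  rw [h]; ring

theorem conj_v_cases {g : G} (hg : g * C.t = C.t * g)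
    (hN : g ∈ Subgroup.normalizer (C.V : Set G)) :
    g * C.v * g⁻¹ = C.v ∨ g * C.v * g⁻¹ = C.t * C.v := by
  have h : g * C.v * g⁻¹ ∈ C.V := (Subgroup.mem_normalizer_iff.1 hN C.v).1 C.v_mem_V
  have ht : g * C.t * g⁻¹ = C.t := by rw [hg, mul_inv_cancel_right]
  rcases C.mem_V_cases h with e | e | e | e
  · exact absurd (by simpa using e) C.v_ne
  · refine absurd ?_ C.t_ne_v.symm
    exact mul_left_cancel (mul_right_cancel (e.trans ht.symm))
  · exact Or.inl e
  · exact Or.inr e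

section Sym

variable [Finite G] [Finite Ω] [FaithfulSMul G Ω] (hS : C.IsSym)
include hS

theorem sym_card_CV :
    Nat.card (Subgroup.centralizer ({C.t, C.v} : Set G)) =
      2 * Nat.card C.F * (Nat.card C.F - 1) := by
  classical
  obtain ⟨s, hs, hst, -⟩ := C.exists_swap_commute hS
  have hsv := C.swap_conj_v hS hs hst
  set K := Subgroup.centralizer ({C.t, C.v} : Set G)
  set L := (Subgroup.centralizer ({C.t} : Set G) ⊓ Subgroup.normalizer (C.V : Set G) : Subgroup G)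
  have hsL : s ∈ L := ⟨Subgroup.mem_centralizer_singleton_iff.2 hst,
    C.mem_normalizer_of_F (by rw [hs.2]; exact C.b_mem_F)
      (by rw [C.swap_smul_b hs]; exact C.a_mem_F)⟩
  have hKL : K ≤ L := fun g hg => ⟨Subgroup.mem_centralizer_singleton_iff.2
    (C.commute_centralizer hg).1, C.centralizer_le_normalizer hg⟩
  have hmem : ∀ g ∈ L, g * C.v * g⁻¹ = C.v → g ∈ K := by
    intro g hg hv
    refine Subgroup.mem_centralizer_iff.2 ?_
    rintro y (rfl | rfl)
    · exact (Subgroup.mem_centralizer_singleton_iff.1 hg.1).symm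
    · exact (mul_inv_eq_iff_eq_mul.1 hv).symm
  have hsK : ∀ g ∈ K, ¬ s * g ∈ K := fun g hg h => by
    have h' := C.commute_centralizer (K.mul_mem h (K.inv_mem hg))
    rw [mul_inv_cancel_right] at h'
    exact hS s hs.2 (C.swap_smul_b hs) h'
  let e : K × Bool → L := fun p =>
    if p.2 then ⟨s * p.1, L.mul_mem hsL (hKL p.1.2)⟩ else ⟨p.1, hKL p.1.2⟩
  have he : Function.Bijective e := by
    constructor
    · rintro ⟨⟨g, hg⟩, b⟩ ⟨⟨g', hg'⟩, b'⟩ h
      have h' := congrArg Subtype.val h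
      cases b <;> cases b' <;> simp only [e, Bool.false_eq_true, ↓reduceIte] at h'
      · simp only [Prod.mk.injEq, Subtype.mk.injEq, and_true]
        exact h'
      · exact absurd (h' ▸ hg) (hsK g' hg')
      · exact absurd (h'.symm ▸ hg') (hsK g hg)
      · simp only [Prod.mk.injEq, Subtype.mk.injEq, and_true]
        exact mul_left_cancel h'
    · rintro ⟨g, hg⟩
      rcases C.conj_v_cases (Subgroup.mem_centralizer_singleton_iff.1 hg.1) hg.2 with h | h
      · exact ⟨(⟨g, hmem g hg h⟩, false), rfl⟩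
      · refine ⟨(⟨s * g, hmem _ (L.mul_mem hsL hg) ?_⟩, true), Subtype.ext ?_⟩
        · have hss : s⁻¹ = s := inv_eq_of_mul_eq_one_right hs.1
          calc s * g * C.v * (s * g)⁻¹ = s * (g * C.v * g⁻¹) * s⁻¹ := by group
            _ = s * (s * C.v * s) * s := by rw [h, hss, hsv]
            _ = s * s * C.v * (s * s) := by group
            _ = C.v := by rw [hs.1]; group
        · show s * (s * g) = g
          rw [← mul_assoc, hs.1, one_mul]
  have h := (Nat.card_eq_of_bijective e he)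
  rw [Nat.card_prod, C.card_local, Nat.card_eq_fintype_card (α := Bool), Fintype.card_bool] at h
  rw [show 4 * Nat.card C.F * (Nat.card C.F - 1) =
    2 * Nat.card C.F * (Nat.card C.F - 1) * 2 by ring] at h
  exact Nat.eq_of_mul_eq_mul_right two_pos h

/-- In the symmetric case the kernel of the action on `V` swaps no two points of `F`. -/
theorem sym_no_swap {g : G} (hg : g ∈ Subgroup.centralizer ({C.t, C.v} : Set G)) {c d : Ω}
    (hc : c ∈ C.F) (hd : d ∈ C.F) (hcd : c ≠ d) : ¬ (g • c = d ∧ g • d = c) := by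
  rintro ⟨h1, h2⟩
  obtain ⟨h, h0, hN, ha, hb⟩ := C.exists_local hc hd hcd
  obtain ⟨g1, g2⟩ := C.commute_centralizer hg
  have hgV : ∀ w ∈ C.V, Commute g w := fun w hw => C.commute_V g1 g2 hw
  have hwV : ∀ w ∈ C.V, Commute (h⁻¹ * g * h) w := by
    intro w hw
    have hw' : h * w * h⁻¹ ∈ C.V := (Subgroup.mem_normalizer_iff.1 hN w).1 hw
    show h⁻¹ * g * h * w = w * (h⁻¹ * g * h)
    calc h⁻¹ * g * h * w = h⁻¹ * (g * (h * w * h⁻¹)) * h := by group
      _ = h⁻¹ * (h * w * h⁻¹ * g) * h := by rw [(hgV _ hw').eq]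
      _ = w * (h⁻¹ * g * h) := by group
  refine hS (h⁻¹ * g * h) ?_ ?_ ⟨(hwV _ C.t_mem_V).eq, (hwV _ C.v_mem_V).eq⟩
  · rw [mul_smul, mul_smul, ha, h1, inv_smul_eq_iff, hb]
  · rw [mul_smul, mul_smul, hb, h2, inv_smul_eq_iff, ha]

/-- In the symmetric case `f = 2` or `f ≡ 3 (mod 4)`. -/
theorem sym_f : Nat.card C.F = 2 ∨ Nat.card C.F % 4 = 3 := by
  classical
  haveI : Fact (Nat.Prime 2) := ⟨Nat.prime_two⟩
  set K := Subgroup.centralizer ({C.t, C.v} : Set G) with hKdef
  have hK : Nat.card K = 2 * Nat.card C.F * (Nat.card C.F - 1) := C.sym_card_CV hS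
  have hVK : C.V ≤ K := fun w hw => Subgroup.mem_centralizer_iff.2 (by
    rintro y (rfl | rfl)
    · exact (C.commute_of_mem_V C.t_mem_V hw).eq
    · exact (C.commute_of_mem_V C.v_mem_V hw).eq)
  haveI : (C.V.subgroupOf K).Normal := ⟨fun w hw g => by
    rw [Subgroup.mem_subgroupOf] at hw ⊢
    obtain ⟨g1, g2⟩ := C.commute_centralizer g.2
    rw [Subgroup.coe_mul, Subgroup.coe_mul, Subgroup.coe_inv, (C.commute_V g1 g2 hw).eq,
      mul_inv_cancel_right]
    exact hw⟩
  -- `8` does not divide the order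
  have h8 : ¬ 2 ∣ Nat.card (K ⧸ C.V.subgroupOf K) := by
    intro h
    obtain ⟨q, hq⟩ := exists_prime_orderOf_dvd_card' 2 h
    obtain ⟨g, rfl⟩ := QuotientGroup.mk_surjective q
    have hg : (g : G) ∉ C.V := fun hv => by
      rw [(QuotientGroup.eq_one_iff (N := C.V.subgroupOf K) g).2 (Subgroup.mem_subgroupOf.2 hv),
        orderOf_one] at hq
      omega
    have hg2 : (g : G) * g ∈ C.V := by
      have h2 := (QuotientGroup.eq_one_iff (N := C.V.subgroupOf K) (g * g)).1 (by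
        rw [QuotientGroup.mk_mul, ← pow_two, ← hq, pow_orderOf_eq_one])
      rwa [Subgroup.mem_subgroupOf, Subgroup.coe_mul] at h2
    obtain ⟨c, hc, hgc⟩ : ∃ c ∈ C.F, (g : G) • c ≠ c := by
      by_contra hno
      push Not at hno
      exact hg (C.mem_V_of_commute (C.mem_H_iff.2 ⟨hno _ C.a_mem_F, hno _ C.b_mem_F⟩)
        (C.commute_centralizer g.2).1)
    exact C.sym_no_swap hS g.2 hc (C.smul_mem_F (C.centralizer_le_normalizer g.2) hc)
      (Ne.symm hgc) ⟨rfl, by rw [← mul_smul, C.smul_of_mem_F hg2 hc]⟩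
  have hcardq : Nat.card (K ⧸ C.V.subgroupOf K) * 4 =
      2 * Nat.card C.F * (Nat.card C.F - 1) := by
    rw [← hK, ← C.card_V, ← Nat.card_congr (Subgroup.subgroupOfEquivOfLe hVK).toEquiv]
    exact (Subgroup.card_eq_card_quotient_mul_card_subgroup _).symm
  set f := Nat.card C.F with hfdef
  set Q := Nat.card (K ⧸ C.V.subgroupOf K)
  have hf2 := C.two_le_f
  rw [← hfdef] at hf2
  have hQ : f * (f - 1) = 2 * Q := by rw [mul_assoc] at hcardq; omega
  rcases Nat.even_or_odd f with ⟨m, hm⟩ | ⟨m, hm⟩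
  swap
  · right
    have : Q = f * m := by
      rw [show f - 1 = 2 * m by omega, show f * (2 * m) = 2 * (f * m) by ring] at hQ
      omega
    rw [this] at h8
    have h8' : ¬ 2 ∣ m := fun h => h8 (dvd_mul_of_dvd_right h f)
    omega
  · left
    have hQm : Q = m * (f - 1) := by
      rw [hm, show (m + m) * (m + m - 1) = 2 * (m * (m + m - 1)) by ring] at hQ
      rw [hm]; omega
    have hmo : ¬ 2 ∣ m := fun h => h8 (hQm ▸ dvd_mul_of_dvd_left h _)
    by_contra hne
    -- an element of `F` different from `a` and `b`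
    obtain ⟨c, hc, hca, hcb⟩ : ∃ c ∈ C.F, c ≠ C.a ∧ c ≠ C.b := by
      by_contra hno
      push Not at hno
      refine hne ?_
      have : C.F = {C.a, C.b} := Set.ext fun c => ⟨fun hc => by
        by_cases h : c = C.a
        · exact Or.inl h
        · exact Or.inr (hno c hc h), by rintro (rfl | rfl); exacts [C.a_mem_F, C.b_mem_F]⟩
      rw [hfdef, this, Nat.card_coe_set_eq, Set.ncard_pair C.hab]
    obtain ⟨s, hs, hst, -⟩ := C.exists_swap_commute hS
    set L := (Subgroup.centralizer ({C.t} : Set G) ⊓ Subgroup.normalizer (C.V : Set G) :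
      Subgroup G) with hLdef
    -- the stabiliser in `L` of a point of `F` centralises `v`
    have hstab : ∀ g ∈ L, ∀ d ∈ C.F, g • d = d → g ∈ K := by
      intro g hg d hd hgd
      let S : Subgroup G := L ⊓ stabilizer G d
      obtain ⟨e, he⟩ : ∃ e, Odd e ∧ Nat.card S = 4 * e := by
        have h1 := Subgroup.index_mul_card (stabilizer ↥L d)
        rw [index_stabilizer] at h1
        have horb : orbit ↥L d = C.F := Set.ext fun z => by
          constructor
          · rintro ⟨y, rfl⟩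
            exact C.smul_mem_F y.2.2 hd
          · intro hz
            by_cases hzd : z = d
            · rw [hzd]; exact mem_orbit_self d
            · obtain ⟨y₁, y0, yN, ya, -⟩ := C.exists_local hd hz (Ne.symm hzd)
              obtain ⟨y₂, z0, zN, za, -⟩ := C.exists_local hz hd hzd
              exact ⟨⟨y₂ * y₁⁻¹, L.mul_mem ⟨Subgroup.mem_centralizer_singleton_iff.2 z0, zN⟩
                (L.inv_mem ⟨Subgroup.mem_centralizer_singleton_iff.2 y0, yN⟩)⟩,
                show (y₂ * y₁⁻¹) • d = z by rw [mul_smul, ← ya, inv_smul_smul, za]⟩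
        have hS' : Nat.card (stabilizer ↥L d) = Nat.card S :=
          Nat.card_congr ⟨fun y => ⟨y.1.1, y.1.2, y.2⟩, fun y => ⟨⟨y.1, y.2.1⟩, y.2.2⟩,
            fun _ => rfl, fun _ => rfl⟩
        rw [horb, hS', C.card_local, ← Nat.card_coe_set_eq, ← hfdef] at h1
        refine ⟨f - 1, Nat.odd_iff.2 (by omega), ?_⟩
        exact Nat.eq_of_mul_eq_mul_left (show 0 < f by omega) (by rw [h1]; ring)
      haveI : (C.V.subgroupOf S).Normal := ⟨fun w hw y => by
        rw [Subgroup.mem_subgroupOf] at hw ⊢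
        exact (Subgroup.mem_normalizer_iff.1 y.2.1.2 _).1 hw⟩
      have hVS : C.V ≤ S := fun w hw => ⟨⟨Subgroup.mem_centralizer_singleton_iff.2
        (C.commute_of_mem_V hw C.t_mem_V).eq, C.H_le_normalizer hw.1⟩, C.smul_of_mem_F hw hd⟩
      have hq : Nat.card (S ⧸ C.V.subgroupOf S) = e := by
        have h := Subgroup.card_eq_card_quotient_mul_card_subgroup (C.V.subgroupOf S)
        rw [he.2, Nat.card_congr (Subgroup.subgroupOfEquivOfLe hVS).toEquiv, C.card_V] at h
        omega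
      let x : S := ⟨g, hg, hgd⟩
      have hxe : (g : G) ^ e ∈ C.V := by
        have h := (QuotientGroup.eq_one_iff (N := C.V.subgroupOf S) (x ^ e)).1 (by
          rw [QuotientGroup.mk_pow, ← hq, pow_card_eq_one'])
        simpa [Subgroup.mem_subgroupOf, x] using h
      refine Subgroup.mem_centralizer_iff.2 ?_
      rintro y (rfl | rfl)
      · exact (Subgroup.mem_centralizer_singleton_iff.1 hg.1).symm
      rcases C.conj_v_cases (Subgroup.mem_centralizer_singleton_iff.1 hg.1) hg.2 with h | h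
      · exact (mul_inv_eq_iff_eq_mul.1 h).symm
      exfalso
      have ht : g * C.t * g⁻¹ = C.t := by
        rw [Subgroup.mem_centralizer_singleton_iff.1 hg.1, mul_inv_cancel_right]
      have h2 : g * (C.t * C.v) * g⁻¹ = C.v := by
        rw [show g * (C.t * C.v) * g⁻¹ = g * C.t * g⁻¹ * (g * C.v * g⁻¹) by group, ht, h,
          ← mul_assoc, C.t_sq, one_mul]
      have hpow : ∀ i : ℕ, g ^ (2 * i + 1) * C.v * (g ^ (2 * i + 1))⁻¹ = C.t * C.v := by
        intro i
        induction i with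
        | zero => simpa using h
        | succ i ih =>
          calc g ^ (2 * (i + 1) + 1) * C.v * (g ^ (2 * (i + 1) + 1))⁻¹
              = g * (g * (g ^ (2 * i + 1) * C.v * (g ^ (2 * i + 1))⁻¹) * g⁻¹) * g⁻¹ := by
                rw [show 2 * (i + 1) + 1 = 1 + 1 + (2 * i + 1) by ring, pow_add, pow_add, pow_one]
                group
            _ = _ := by rw [ih, h2, h]
      obtain ⟨i, hi⟩ := he.1
      have h3 := hpow i
      rw [← hi, (C.commute_of_mem_V hxe C.v_mem_V).eq, mul_inv_cancel_right] at h3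
      exact C.t_ne (mul_eq_right.1 h3.symm)
    -- conclusion
    obtain ⟨g₁, y0, yN, ya, -⟩ := C.exists_local hc C.a_mem_F hca
    obtain ⟨g₂, z0, zN, za, zb⟩ := C.exists_local hc C.b_mem_F hcb
    obtain ⟨g₃, w0, wN, wa, wb⟩ := C.exists_local hc C.a_mem_F hca
    let g := g₂ * g₃⁻¹
    have hgL : g ∈ L := L.mul_mem ⟨Subgroup.mem_centralizer_singleton_iff.2 z0, zN⟩
      (L.inv_mem ⟨Subgroup.mem_centralizer_singleton_iff.2 w0, wN⟩)
    have hgc : g • c = c := by rw [mul_smul, ← wa, inv_smul_smul, za]; exact wa.symm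
    have hga : g • C.a = C.b := by
      rw [mul_smul, show g₃⁻¹ • C.a = C.b by rw [inv_smul_eq_iff, wb], zb]
    have hsL : s ∈ L := ⟨Subgroup.mem_centralizer_singleton_iff.2 hst,
      C.mem_normalizer_of_F (by rw [hs.2]; exact C.b_mem_F)
        (by rw [C.swap_smul_b hs]; exact C.a_mem_F)⟩
    have hsg : s * g ∈ K := hstab _ (L.mul_mem hsL hgL) _ C.a_mem_F
      (by rw [mul_smul, hga, C.swap_smul_b hs])
    have hsK : s ∈ K := by
      have := K.mul_mem hsg (K.inv_mem (hstab g hgL c hc hgc))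
      rwa [mul_inv_cancel_right] at this
    exact hS s hs.2 (C.swap_smul_b hs) (C.commute_centralizer hsK)

end Sym

/-! ### The case `Δ ≠ F` -/

section CaseB

variable [Finite G] [Finite Ω] (hB : ¬ C.CaseA)
include hB

theorem f_lt_k : Nat.card C.F < Nat.card C.Δ := by
  rw [Nat.card_coe_set_eq, Nat.card_coe_set_eq]
  exact Set.ncard_lt_ncard (Set.ssubset_iff_subset_ne.2
    ⟨C.F_subset, fun h => hB (le_of_eq h.symm)⟩) (Set.toFinite _)

/-- An element of `C(t)`, outside `⟨t⟩`, fixing two points of `Δ`. -/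
theorem conj_of_fix_two {g : G} (hg : g * C.t = C.t * g) (hg1 : g ≠ 1) (hgt : g ≠ C.t)
    {c d : Ω} (hc : c ∈ C.Δ) (hd : d ∈ C.Δ) (hcd : c ≠ d) (hgc : g • c = c) (hgd : g • d = d) :
    ∃ h : G, h * C.t = C.t * h ∧
      (h * C.v * h⁻¹ = g ∨ h * (C.t * C.v) * h⁻¹ = g) := by
  obtain ⟨h, h0, ha, hb⟩ := C.witt hc hd hcd
  have hH : h⁻¹ * g * h ∈ C.H := C.mem_H_iff.2
    ⟨by rw [mul_smul, mul_smul, ha, hgc, inv_smul_eq_iff, ha],
      by rw [mul_smul, mul_smul, hb, hgd, inv_smul_eq_iff, hb]⟩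
  have hct : h⁻¹ * g * h * C.t = C.t * (h⁻¹ * g * h) :=
    (((show Commute h C.t from h0).inv_left.mul_left (show Commute g C.t from hg)).mul_left
      (show Commute h C.t from h0)).eq
  have hback : h * (h⁻¹ * g * h) * h⁻¹ = g := by group
  rcases C.mem_V_cases (C.mem_V_of_commute hH hct) with e | e | e | e
  · exfalso; rw [e, mul_one, mul_inv_cancel] at hback; exact hg1 hback.symm
  · exfalso; rw [e, h0, mul_inv_cancel_right] at hback; exact hgt hback.symm
  · exact ⟨h, h0, Or.inl (by rw [← e]; exact hback)⟩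
  · exact ⟨h, h0, Or.inr (by rw [← e]; exact hback)⟩

/-- Such an element is an involution, so is its product with `t`, and it fixes `f` points of
`Δ`. -/
theorem fix_two_facts {g : G} (hg : g * C.t = C.t * g) (hg1 : g ≠ 1) (hgt : g ≠ C.t)
    {c d : Ω} (hc : c ∈ C.Δ) (hd : d ∈ C.Δ) (hcd : c ≠ d) (hgc : g • c = c) (hgd : g • d = d) :
    g * g = 1 ∧ g * C.t * (g * C.t) = 1 ∧ IsConj C.t g ∧ IsConj C.t (g * C.t) ∧
      Nat.card {z : Ω // z ∈ C.Δ ∧ g • z = z} = Nat.card C.F := by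
  obtain ⟨h, h0, he⟩ := C.conj_of_fix_two hB hg hg1 hgt hc hd hcd hgc hgd
  obtain ⟨w, hw, hw', hwF, rfl⟩ : ∃ w, (w ∈ C.V ∧ w ≠ 1 ∧ w ≠ C.t) ∧
      (w * C.t ∈ C.V ∧ w * C.t ≠ 1) ∧
      (∀ z, z ∈ C.Δ ∧ w • z = z ↔ z ∈ C.F) ∧ h * w * h⁻¹ = g := by
    rcases he with e | e
    · exact ⟨C.v, ⟨C.v_mem_V, C.v_ne, C.t_ne_v.symm⟩,
        ⟨C.V.mul_mem C.v_mem_V C.t_mem_V, fun e' => C.t_ne_v
          ((eq_inv_of_mul_eq_one_left e').trans (inv_eq_of_mul_eq_one_right C.t_sq)).symm⟩,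
        fun z => Iff.rfl, e⟩
    · refine ⟨C.t * C.v, ⟨C.V.mul_mem C.t_mem_V C.v_mem_V, fun e' => C.t_ne_v ?_,
        fun e' => C.v_ne (mul_eq_left.1 e')⟩,
        ⟨C.V.mul_mem (C.V.mul_mem C.t_mem_V C.v_mem_V) C.t_mem_V, fun e' => C.v_ne ?_⟩,
        fun z => ⟨fun hz => ⟨hz.1, ?_⟩, fun hz => ⟨hz.1, ?_⟩⟩, e⟩
      · exact (eq_inv_of_mul_eq_one_left e').trans (inv_eq_of_mul_eq_one_right C.v_sq)
      · rw [mul_assoc, ← C.commute_t_v.eq, ← mul_assoc, C.t_sq, one_mul] at e'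
        exact e'
      · have := hz.2
        rw [mul_smul] at this
        calc C.v • z = C.t • C.t • C.v • z := by rw [← mul_smul C.t C.t, C.t_sq, one_smul]
          _ = z := by rw [this, show C.t • z = z from hz.1]
      · rw [mul_smul, show C.v • z = z from hz.2, show C.t • z = z from hz.1]
  have ht : h * C.t * h⁻¹ = C.t := by rw [h0, mul_inv_cancel_right]
  have e2 : h * w * h⁻¹ * C.t = h * (w * C.t) * h⁻¹ := by
    conv_lhs => rw [← ht]
    group
  have hconj : ∀ w' : G, w' ∈ C.V → w' ≠ 1 → IsConj C.t (h * w' * h⁻¹) := fun w' h1 h2 => by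
    obtain ⟨y, -, hy⟩ := C.isConj_t_of_mem h1.1 h1.2 h2
    exact isConj_iff.2 ⟨h * y, by rw [← hy]; group⟩
  refine ⟨?_, ?_, hconj w hw.1 hw.2.1, e2 ▸ hconj _ hw'.1 hw'.2, ?_⟩
  · exact (C.ne_of_isConj_t (hconj w hw.1 hw.2.1)).1
  · rw [e2]; exact (C.ne_of_isConj_t (hconj _ hw'.1 hw'.2)).1
  · refine Nat.card_congr (((MulAction.toPerm h).subtypeEquiv fun z => ?_).symm)
    show z ∈ C.F ↔ h • z ∈ C.Δ ∧ (h * w * h⁻¹) • h • z = h • z
    rw [mul_smul, mul_smul, inv_smul_smul, smul_left_cancel_iff, ← hwF]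
    refine ⟨fun hz => ⟨C.smul_mem_Δ h0 hz.1, hz.2⟩, fun hz => ⟨?_, hz.2⟩⟩
    have := C.smul_mem_Δ (show h⁻¹ * C.t = C.t * h⁻¹ from
      (show Commute h C.t from h0).inv_left.eq) hz.1
    rwa [inv_smul_smul] at this

/-- `k = f²` or `k = f (2 f - 1)`, the first in the symmetric case. -/
theorem k_cases [FaithfulSMul G Ω] :
    (Nat.card C.Δ = Nat.card C.F * Nat.card C.F ∨
      Nat.card C.Δ = Nat.card C.F * (2 * Nat.card C.F - 1)) ∧
    (C.IsSym → Nat.card C.Δ = Nat.card C.F * Nat.card C.F) := by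
  classical
  haveI := Fintype.ofFinite Ω
  haveI := Fintype.ofFinite G
  let M : Set G := {g | g * C.t = C.t * g ∧ g ≠ 1 ∧ g ≠ C.t ∧
    ∃ c ∈ C.Δ, ∃ d ∈ C.Δ, c ≠ d ∧ g • c = c ∧ g • d = d}
  have hMconj : ∀ g ∈ M, ∀ y : G, y * C.t = C.t * y → y * g * y⁻¹ ∈ M := by
    rintro g ⟨g0, g1, g2, c, hc, d, hd, hcd, gc, gd⟩ y hy
    refine ⟨(((show Commute y C.t from hy).mul_left g0).mul_left
      (show Commute y C.t from hy).inv_left).eq, fun e => g1 ?_, fun e => g2 ?_,
      y • c, C.smul_mem_Δ hy hc, y • d, C.smul_mem_Δ hy hd,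
      fun e => hcd (MulAction.injective y e), ?_, ?_⟩
    · rw [show g = y⁻¹ * (y * g * y⁻¹) * y by group, e, mul_one, inv_mul_cancel]
    · rw [show g = y⁻¹ * (y * g * y⁻¹) * y by group, e, mul_assoc, ← hy, inv_mul_cancel_left]
    · rw [mul_smul, mul_smul, inv_smul_smul, gc]
    · rw [mul_smul, mul_smul, inv_smul_smul, gd]
  -- transport of counts from `(a, b)` to all pairs of `Δ`
  have key : ∀ Q : G → Ω → Ω → Prop,
      (∀ g y : G, ∀ c d : Ω, Q g c d → Q (y * g * y⁻¹) (y • c) (y • d)) →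
      Nat.card {z : M × {p : Ω × Ω // p.1 ∈ C.Δ ∧ p.2 ∈ C.Δ ∧ p.1 ≠ p.2} //
          Q z.1 z.2.1.1 z.2.1.2} =
        Nat.card {p : Ω × Ω // p.1 ∈ C.Δ ∧ p.2 ∈ C.Δ ∧ p.1 ≠ p.2} *
          Nat.card {g : M // Q g C.a C.b} := by
    intro Q hQ
    rw [← Nat.card_prod]
    choose y y0 ya yb using fun p : {p : Ω × Ω // p.1 ∈ C.Δ ∧ p.2 ∈ C.Δ ∧ p.1 ≠ p.2} =>
      C.witt p.2.1 p.2.2.1 p.2.2.2
    have yi : ∀ p, (y p)⁻¹ * C.t = C.t * (y p)⁻¹ := fun p =>
      (show Commute (y p) C.t from y0 p).inv_left.eq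
    refine Nat.card_congr
      { toFun := fun z => (z.1.2, ⟨⟨(y z.1.2)⁻¹ * z.1.1 * y z.1.2, ?_⟩, ?_⟩)
        invFun := fun z => ⟨(⟨y z.1 * z.2.1 * (y z.1)⁻¹, hMconj _ z.2.1.2 _ (y0 _)⟩, z.1), ?_⟩
        left_inv := ?_
        right_inv := ?_ }
    · have h := hMconj _ z.1.1.2 _ (yi z.1.2)
      rwa [inv_inv] at h
    · have h := hQ _ (y z.1.2)⁻¹ _ _ z.2
      rw [inv_inv, show (y z.1.2)⁻¹ • z.1.2.1.1 = C.a by rw [inv_smul_eq_iff, ya],
        show (y z.1.2)⁻¹ • z.1.2.1.2 = C.b by rw [inv_smul_eq_iff, yb]] at h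
      exact h
    · have h := hQ _ (y z.1) _ _ z.2.2
      rw [ya, yb] at h
      exact h
    · rintro ⟨⟨⟨g, hg⟩, p⟩, hz⟩
      refine Subtype.ext (Prod.ext (Subtype.ext ?_) rfl)
      show y p * ((y p)⁻¹ * g * y p) * (y p)⁻¹ = g
      group
    · rintro ⟨p, ⟨g, hg⟩, hz⟩
      refine Prod.ext rfl (Subtype.ext (Subtype.ext ?_))
      show (y p)⁻¹ * (y p * g * (y p)⁻¹) * y p = g
      group
  set k := Nat.card C.Δ with hk
  set f := Nat.card C.F with hf
  have hpairs : Nat.card {p : Ω × Ω // p.1 ∈ C.Δ ∧ p.2 ∈ C.Δ ∧ p.1 ≠ p.2} = k * (k - 1) := by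
    rw [Nat.card_congr (Equiv.subtypeEquivRight (q := fun p => p ∈ C.Δ.toFinset.offDiag)
      fun p => by simp), Nat.card_eq_fintype_card, Fintype.card_coe, Finset.offDiag_card,
      Set.toFinset_card, ← Nat.card_eq_fintype_card, ← hk, Nat.mul_sub, mul_one]
  have hfix : ∀ g : M, Nat.card {z : Ω // z ∈ C.Δ ∧ (g : G) • z = z} = f := by
    rintro ⟨g, g0, g1, g2, c, hc, d, hd, hcd, gc, gd⟩
    exact (C.fix_two_facts hB g0 g1 g2 hc hd hcd gc gd).2.2.2.2
  -- the fixed pairs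
  have hA : Nat.card M * (f * (f - 1)) = k * (k - 1) * 2 := by
    have h := key (fun g c d => g • c = c ∧ g • d = d) (fun g y c d h => ⟨by
      rw [mul_smul, mul_smul, inv_smul_smul, h.1], by rw [mul_smul, mul_smul, inv_smul_smul, h.2]⟩)
    have hV2 : Nat.card {g : M // (g : G) • C.a = C.a ∧ (g : G) • C.b = C.b} = 2 := by
      have hm : ∀ w, w ∈ C.V → w ≠ 1 → w ≠ C.t → w ∈ M := fun w hw h1 h2 =>
        ⟨(C.commute_of_mem_V hw C.t_mem_V).eq, h1, h2, C.a, C.ι_smul_a _, C.b, C.ι_smul_b _,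
          C.hab, (C.mem_H_iff.1 hw.1).1, (C.mem_H_iff.1 hw.1).2⟩
      have htv : C.t * C.v ∈ C.V := C.V.mul_mem C.t_mem_V C.v_mem_V
      refine Nat.card_eq_two_iff.2 ⟨⟨⟨C.v, hm _ C.v_mem_V C.v_ne C.t_ne_v.symm⟩,
        C.mem_H_iff.1 C.v_mem⟩, ⟨⟨C.t * C.v, hm _ htv (fun e => C.t_ne_v
          ((eq_inv_of_mul_eq_one_left e).trans (inv_eq_of_mul_eq_one_right C.v_sq)))
          fun e => C.v_ne (mul_eq_left.1 e)⟩, C.mem_H_iff.1 htv.1⟩,
        fun e => C.t_ne (mul_eq_right.1 (congrArg (fun z => ((z.1 : M) : G)) e).symm), ?_⟩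
      refine Set.eq_univ_of_forall fun z => ?_
      obtain ⟨⟨g, g0, g1, g2, hrest⟩, gab⟩ := z
      rcases C.mem_V_cases (C.mem_V_of_commute (C.mem_H_iff.2 gab) g0) with e | e | e | e
      · exact absurd e g1
      · exact absurd e g2
      · exact Or.inl (Subtype.ext (Subtype.ext e))
      · exact Or.inr (Subtype.ext (Subtype.ext e))
    rw [hV2, hpairs] at h
    rw [← h, Nat.card_congr (α := {z : M × {p : Ω × Ω // p.1 ∈ C.Δ ∧ p.2 ∈ C.Δ ∧ p.1 ≠ p.2} //
        (z.1 : G) • z.2.1.1 = z.2.1.1 ∧ (z.1 : G) • z.2.1.2 = z.2.1.2}) (β := Σ g : M,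
      ↥((Finset.univ.filter fun z : Ω => z ∈ C.Δ ∧ (g : G) • z = z).offDiag))
      { toFun := fun z => ⟨z.1.1, z.1.2.1, by
          simp only [Finset.mem_offDiag, Finset.mem_filter, Finset.mem_univ, true_and]
          exact ⟨⟨z.1.2.2.1, z.2.1⟩, ⟨z.1.2.2.2.1, z.2.2⟩, z.1.2.2.2.2⟩⟩
        invFun := fun z => ⟨(z.1, ⟨z.2.1, by
            have := z.2.2
            simp only [Finset.mem_offDiag, Finset.mem_filter, Finset.mem_univ, true_and] at this
            exact ⟨this.1.1, this.2.1.1, this.2.2⟩⟩), by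
            have := z.2.2
            simp only [Finset.mem_offDiag, Finset.mem_filter, Finset.mem_univ, true_and] at this
            exact ⟨this.1.2, this.2.1.2⟩⟩
        left_inv := fun _ => rfl
        right_inv := fun _ => rfl }, Nat.card_sigma]
    rw [Finset.sum_congr rfl (g := fun _ => f * (f - 1)) fun g _ => by
      rw [Nat.card_eq_fintype_card, Fintype.card_coe, Finset.offDiag_card, Nat.mul_sub, mul_one]
      rw [← hfix g, Nat.card_eq_fintype_card, Fintype.card_subtype]]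
    rw [Finset.sum_const, Finset.card_univ, smul_eq_mul, ← Nat.card_eq_fintype_card]
  -- the moved points
  set J := Nat.card {g : M // (g : G) • C.a = C.b} with hJ
  have hBm : Nat.card M * (k - f) = k * (k - 1) * J := by
    have h := key (fun g c d => g • c = d) (fun g y c d h => by
      rw [mul_smul, mul_smul, inv_smul_smul, h])
    rw [hpairs] at h
    rw [hJ, ← h, Nat.card_congr (α := {z : M × {p : Ω × Ω // p.1 ∈ C.Δ ∧ p.2 ∈ C.Δ ∧ p.1 ≠ p.2} //
        (z.1 : G) • z.2.1.1 = z.2.1.2}) (β := Σ g : M,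
      {z : C.Δ // (g : G) • (z : Ω) ≠ (z : Ω)})
      { toFun := fun z => ⟨z.1.1, ⟨z.1.2.1.1, z.1.2.2.1⟩, fun e => z.1.2.2.2.2 (e.symm.trans z.2)⟩
        invFun := fun z => ⟨(z.1, ⟨(z.2.1.1, (z.1 : G) • z.2.1.1), z.2.1.2,
          C.smul_mem_Δ z.1.2.1 z.2.1.2, Ne.symm z.2.2⟩), rfl⟩
        left_inv := fun z => Subtype.ext (Prod.ext rfl (Subtype.ext (Prod.ext rfl z.2)))
        right_inv := fun _ => rfl }, Nat.card_sigma]
    rw [Finset.sum_congr rfl (g := fun _ => k - f) fun g _ => by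
      rw [Nat.card_eq_fintype_card, Fintype.card_subtype_compl, ← Nat.card_eq_fintype_card,
        ← Nat.card_eq_fintype_card, ← hfix g, hk]
      congr 1
      exact Nat.card_congr ⟨fun z => ⟨z.1, z.1.2, z.2⟩, fun z => ⟨⟨z.1, z.2.1⟩, z.2.2⟩,
        fun _ => rfl, fun _ => rfl⟩]
    rw [Finset.sum_const, Finset.card_univ, smul_eq_mul, ← Nat.card_eq_fintype_card]
  have hfk := C.f_lt_k hB
  rw [← hk, ← hf] at hfk
  have hf2 := C.two_le_f
  rw [← hf] at hf2
  have hM0 : 0 < Nat.card M := by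
    rcases Nat.eq_zero_or_pos (Nat.card M) with h0 | h0
    · exfalso
      rw [h0, zero_mul] at hA
      have : 0 < k * (k - 1) := Nat.mul_pos (by omega) (by omega)
      omega
    · exact h0
  have hJeq : J * (f * (f - 1)) = 2 * (k - f) := by
    refine Nat.eq_of_mul_eq_mul_left hM0 ?_
    calc Nat.card M * (J * (f * (f - 1))) = J * (Nat.card M * (f * (f - 1))) := by ring
      _ = 2 * (k * (k - 1) * J) := by rw [hA]; ring
      _ = Nat.card M * (2 * (k - f)) := by rw [← hBm]; ring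
  -- `J` is even and at most 4
  have hJmem : ∀ g : M, (g : G) • C.a = C.b → (g : G) ∈ C.Swap := by
    rintro ⟨g, g0, g1, g2, c, hc, d, hd, hcd, gc, gd⟩ h
    exact ⟨(C.fix_two_facts hB g0 g1 g2 hc hd hcd gc gd).1, h⟩
  have hJswap : J ≤ Nat.card {g : G // g ∈ C.Swap ∧ g * C.t = C.t * g} :=
    Nat.card_le_card_of_injective (fun g => ⟨g.1.1, hJmem g.1 g.2, g.1.2.1⟩)
      fun g g' e => Subtype.ext (Subtype.ext (congrArg (fun z => z.1) e))
  have hpair : ∀ g : {g : M // (g : G) • C.a = C.b}, ∃ g' : {g : M // (g : G) • C.a = C.b},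
      ((g'.1 : M) : G) = ((g.1 : M) : G) * C.t := by
    rintro ⟨⟨g, g0, g1, g2, c, hc, d, hd, hcd, gc, gd⟩, hab⟩
    have h2 := C.fix_two_facts hB g0 g1 g2 hc hd hcd gc gd
    refine ⟨⟨⟨g * C.t, (((show Commute g C.t from g0)).mul_left (Commute.refl C.t)).eq,
      (C.ne_of_isConj_t h2.2.2.2.1).2, fun e => g1 (mul_eq_right.1 e), c, hc, d, hd, hcd,
      by rw [mul_smul, show C.t • c = c from hc, gc],
      by rw [mul_smul, show C.t • d = d from hd, gd]⟩, ?_⟩, rfl⟩
    show (g * C.t) • C.a = C.b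
    rw [mul_smul, (C.mem_H_iff.1 C.t_mem).1]
    exact hab
  have hJeven : J % 2 = 0 := by
    choose σ hσ using hpair
    let σ' : Function.End {g : M // (g : G) • C.a = C.b} := σ
    haveI : Fact (Nat.Prime 2) := ⟨Nat.prime_two⟩
    have hσσ : σ' ^ 2 ^ 1 = 1 := by
      rw [pow_one, pow_two]
      funext g
      refine Subtype.ext (Subtype.ext ?_)
      show ((σ (σ g)).1 : G) = g.1
      rw [hσ, hσ, mul_assoc, C.t_sq, mul_one]
    have h := Equiv.Perm.card_fixedPoints_modEq (p := 2) hσσ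
    rw [hJ, Nat.card_eq_fintype_card, h]
    haveI : IsEmpty (Function.fixedPoints σ) := ⟨fun g => C.t_ne (by
      have h' := hσ g.1
      rw [show σ g.1 = g.1 from g.2] at h'
      exact mul_eq_left.1 h'.symm)⟩
    rw [Fintype.card_eq_zero]
  have hfix2 : f + f * (f - 1) = f * f := by
    obtain ⟨r, hr⟩ : ∃ r, f = r + 1 := ⟨f - 1, by omega⟩
    rw [hr]
    rw [Nat.add_sub_cancel]; ring
  have hfix4 : f + 2 * (f * (f - 1)) = f * (2 * f - 1) := by
    obtain ⟨r, hr⟩ : ∃ r, f = r + 1 := ⟨f - 1, by omega⟩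
    rw [hr]
    rw [Nat.add_sub_cancel, show 2 * (r + 1) - 1 = 2 * r + 1 by omega]; ring
  have hJ0 : J ≠ 0 := fun h => by rw [h, zero_mul] at hJeq; omega
  rcases C.dir_or_sym with hD | hS
  · obtain ⟨u, hua, hu2, huH⟩ := hD
    have hJ4 : J ≤ 4 := by
      refine hJswap.trans ?_
      rw [← C.card_V]
      refine Nat.card_le_card_of_injective (fun g => (⟨u * g.1, ?_⟩ : C.V)) fun g g' e =>
        Subtype.ext (mul_left_cancel (congrArg Subtype.val e))
      obtain ⟨w, hw, he⟩ := (C.swap_iff_dir hua hu2 huH).1 g.2.1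
      rw [he, ← mul_assoc, hu2, one_mul]
      exact hw
    refine ⟨?_, fun hS => absurd ⟨(huH _ C.t_mem), (huH _ C.v_mem)⟩
      (hS u hua (C.swap_smul_b ⟨hu2, hua⟩))⟩
    rcases (show J = 2 ∨ J = 4 by omega) with h | h
    · left
      rw [h] at hJeq
      omega
    · right
      rw [h] at hJeq
      omega
  · have hJ2 : J = 2 := by
      obtain ⟨s, hs, hst, -⟩ := C.exists_swap_commute hS
      have : J ≤ 2 := by
        refine hJswap.trans ?_
        refine (Nat.card_le_card_of_injective (β := ({s, s * C.t} : Finset G))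
          (fun g => ⟨g.1, by simp [C.swap_commute_t hS hs hst g.2.1 g.2.2]⟩)
          fun g g' e => Subtype.ext (by simpa using congrArg Subtype.val e)).trans ?_
        rw [Nat.card_eq_fintype_card, Fintype.card_coe]
        exact Finset.card_le_two
      omega
    rw [hJ2] at hJeq
    exact ⟨Or.inl (by omega), fun _ => by omega⟩

end CaseB

end Ctx

end CfsgLib.TwoPointAltFour
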