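import Mathlib

/-!
# No 2-transitive group of degree 28 and order 9072 with small involution centralisers

A piece of the classification of doubly transitive groups with two-point stabiliser `A₄`.
-/

namespace CfsgLib.TwoPointAltFour

/-- A doubly transitive group of degree 28 cannot have order `9072 = 2⁴·3⁴·7` with all involution
centralisers of order 48: the Sylow 7-count is 8 or 1296, and both die by transitivity of normal
subgroups. -/
theorem no_group_9072 {G Ω : Type*} [Group G] [Finite G] [MulAction G Ω] [FaithfulSMul G Ω]
    [Finite Ω] (h2 : MulAction.IsMultiplyPretransitive G Ω 2) (hΩ : Nat.card Ω = 28)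
    (hG : Nat.card G = 9072)
    (hc : ∀ i : G, orderOf i = 2 → Nat.card (Subgroup.centralizer ({i} : Set G)) = 48) : False := by
  classical
  have hprim : MulAction.IsPreprimitive G Ω := MulAction.isPreprimitive_of_is_two_pretransitive h2
  have hΩne : Nonempty Ω := (Nat.card_pos_iff.1 (by omega)).1
  -- nontrivial normal subgroups have order divisible by 28
  have hnorm : ∀ N : Subgroup G, N.Normal → N ≠ ⊥ → 28 ∣ Nat.card N := by
    intro N hN hne
    have hfix : MulAction.fixedPoints N Ω ≠ Set.univ := by
      intro h
      refine hne ((Subgroup.eq_bot_iff_forall N).2 fun x hx => ?_)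
      refine FaithfulSMul.eq_of_smul_eq_smul (α := Ω) fun a => ?_
      have ha : a ∈ MulAction.fixedPoints N Ω := h ▸ Set.mem_univ a
      simpa using ha ⟨x, hx⟩
    have := MulAction.IsQuasiPreprimitive.isPretransitive_of_normal hfix
    obtain ⟨a⟩ := hΩne
    have h := (MulAction.stabilizer N a).index_dvd_card
    rwa [MulAction.index_stabilizer_of_transitive, hΩ] at h
  have : Fact (Nat.Prime 7) := ⟨by norm_num⟩
  obtain ⟨P⟩ := (inferInstance : Nonempty (Sylow 7 G))
  have hPc : Nat.card P = 7 := by
    rw [P.card_eq_multiplicity, hG, Nat.factorization_def _ (by norm_num : Nat.Prime 7)]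
    have : padicValNat 7 9072 = 1 := by
      rw [show (9072 : ℕ) = 7 * 1296 by norm_num, padicValNat.mul (by norm_num) (by norm_num),
        padicValNat_self, padicValNat.eq_zero_of_not_dvd (by norm_num)]
    rw [this, pow_one]
  have hcyc : IsCyclic P := isCyclic_of_prime_card hPc
  set N : Subgroup G := Subgroup.normalizer ((P : Subgroup G) : Set G) with hNdef
  set C : Subgroup G := Subgroup.centralizer ((P : Subgroup G) : Set G) with hCdef
  have hCN : C ≤ N := Subgroup.centralizer_le_normalizer _
  -- the centraliser of `P` has odd order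
  have hCodd : ¬ 2 ∣ Nat.card C := by
    intro h
    have : Fact (Nat.Prime 2) := ⟨Nat.prime_two⟩
    obtain ⟨i, hi⟩ := exists_prime_orderOf_dvd_card' 2 h
    have hi' : orderOf (i : G) = 2 := by rw [Subgroup.orderOf_coe, hi]
    have hle : (P : Subgroup G) ≤ Subgroup.centralizer ({(i : G)} : Set G) := by
      intro x hx
      rw [Subgroup.mem_centralizer_iff]
      rintro y rfl
      exact (Subgroup.mem_centralizer_iff.1 i.2 x hx).symm
    have h7 := Subgroup.card_dvd_of_le hle
    rw [hPc, hc _ hi'] at h7
    norm_num at h7
  -- hence `4` does not divide the order of the normaliser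
  have hN4 : ¬ 4 ∣ Nat.card N := by
    have key := Subgroup.card_dvd_of_injective _
      (QuotientGroup.kerLift_injective (P : Subgroup G).normalizerMonoidHom)
    rw [Subgroup.normalizerMonoidHom_ker, ← Subgroup.index, hcyc.card_mulAut, hPc,
      Nat.totient_prime (by norm_num)] at key
    change (C.subgroupOf N).index ∣ 7 - 1 at key
    have hmul := (C.subgroupOf N).index_mul_card
    rw [Nat.card_congr (Subgroup.subgroupOfEquivOfLe hCN).toEquiv] at hmul
    intro h4
    rw [← hmul] at h4
    have hco : Nat.Coprime 4 (Nat.card C) := by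
      rw [show (4 : ℕ) = 2 ^ 2 by norm_num]
      exact Nat.Coprime.pow_left _ ((Nat.prime_two.coprime_iff_not_dvd).2 hCodd)
    have := (hco.dvd_of_dvd_mul_right h4).trans key
    norm_num at this
  have hn : Nat.card (Sylow 7 G) = N.index := P.card_eq_index_normalizer
  have hmod : N.index % 7 = 1 := by
    have := card_sylow_modEq_one 7 G
    rw [hn] at this
    simpa [Nat.ModEq] using this
  have hNm : Nat.card N * N.index = 9072 := by rw [Subgroup.card_mul_index, hG]
  have hPN : 7 ∣ Nat.card N := hPc ▸ Subgroup.card_dvd_of_le Subgroup.le_normalizer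
  obtain ⟨m, hm⟩ := hPN
  have hm' : m * N.index = 1296 := by
    rw [hm, mul_assoc] at hNm; omega
  have hcases : N.index = 8 ∨ N.index = 1296 := by
    have hd : N.index ∈ Nat.divisors 1296 :=
      Nat.mem_divisors.2 ⟨Dvd.intro_left m hm', by norm_num⟩
    have hm4 : ¬ 4 ∣ 7 * m := hm ▸ hN4
    have hall : ∀ d ∈ Nat.divisors 1296, d % 7 = 1 → ¬ 4 ∣ 7 * (1296 / d) →
        d = 8 ∨ d = 1296 := by decide +kernel
    refine hall _ hd hmod ?_
    rwa [← hm', Nat.mul_div_cancel _ (Nat.pos_of_ne_zero fun h => by simp [h] at hm')]
  rcases hcases with h8 | h1296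
  · -- eight Sylow subgroups: the kernel lies in `N`, so the action is faithful in `S₈`
    set f : G →* Equiv.Perm (Sylow 7 G) := MulAction.toPermHom G (Sylow 7 G)
    have hk : f.ker ≤ N := by
      intro x hx
      rw [MonoidHom.mem_ker] at hx
      exact Sylow.smul_eq_iff_mem_normalizer.1 (by simpa [f] using DFunLike.congr_fun hx P)
    have hNc : Nat.card N = 1134 := by rw [h8] at hNm; omega
    have hkb : f.ker = ⊥ := by
      by_contra hne
      have h := (hnorm f.ker inferInstance hne).trans (Subgroup.card_dvd_of_le hk)
      rw [hNc] at h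
      norm_num at h
    have hdvd := Subgroup.card_dvd_of_injective f ((MonoidHom.ker_eq_bot_iff f).1 hkb)
    rw [hG, Nat.card_perm, hn, h8] at hdvd
    norm_num [Nat.factorial] at hdvd
  · -- the normaliser is `P`, so Burnside gives a normal complement of order 1296
    have hNP : N = (P : Subgroup G) := by
      refine (Subgroup.eq_of_le_of_card_ge Subgroup.le_normalizer ?_).symm
      rw [h1296] at hNm
      show Nat.card N ≤ _
      rw [hPc]; omega
    have hnc : Subgroup.normalizer ((P : Subgroup G) : Set G) ≤
        Subgroup.centralizer ((P : Subgroup G) : Set G) := by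
      rw [← hNdef, hNP]
      exact Subgroup.le_centralizer _
    have hcomp := (MonoidHom.ker_transferSylow_isComplement' P hnc).card_mul_card
    rw [hPc, hG] at hcomp
    set K := (MonoidHom.transferSylow P hnc).ker
    have hKc : Nat.card K = 1296 := by omega
    have hne : K ≠ ⊥ := fun h => by rw [h, Subgroup.card_bot] at hKc; omega
    have h := hnorm K inferInstance hne
    rw [hKc] at h
    norm_num at h

end CfsgLib.TwoPointAltFour
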