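import Mathlib

/-!
Doubly transitive groups whose two-point stabiliser is isomorphic to the alternating group of
degree four: the two-point stabiliser, its four-group and the basic counting.
-/

set_option autoImplicit false

open MulAction Equiv Equiv.Perm

namespace CfsgLib.TwoPointAltFour

/-- The alternating group of degree four. -/
abbrev A4 := ↥(alternatingGroup (Fin 4))

/-- A double transposition. -/
def t0 : A4 := ⟨swap 0 1 * swap 2 3, mem_alternatingGroup.2 (by decide)⟩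

/-- A second double transposition. -/
def v0 : A4 := ⟨swap 0 2 * swap 1 3, mem_alternatingGroup.2 (by decide)⟩

/-- An element of order three. -/
def x0 : A4 := ⟨swap 0 1 * swap 1 2, mem_alternatingGroup.2 (by decide)⟩

theorem sq_cases : ∀ y : A4, y * y = 1 → y = 1 ∨ y = t0 ∨ y = v0 ∨ y = t0 * v0 := by
  decide +kernel

theorem commute_cases : ∀ y : A4, y * t0 = t0 * y → y * y = 1 := by
  decide +kernel

theorem facts : t0 * t0 = 1 ∧ t0 ≠ 1 ∧ v0 * v0 = 1 ∧ v0 ≠ 1 ∧ t0 ≠ v0 ∧ t0 * v0 = v0 * t0 ∧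
    t0 * v0 ≠ 1 ∧ (t0 * v0) * (t0 * v0) = 1 ∧ x0 * x0 * x0 = 1 ∧ x0 ≠ 1 ∧ x0 * x0 ≠ 1 := by
  decide +kernel

/-- The powers of `x0` permute the involutions transitively. -/
theorem x0_trans : ∀ y : A4, y * y = 1 → y ≠ 1 →
    y = t0 ∨ y = x0 * t0 * x0⁻¹ ∨ y = x0⁻¹ * t0 * x0 := by
  decide +kernel

/-- Adjusting by the four-group. -/
theorem v_adjust : ∀ y : A4, y * y = 1 → ∃ w : A4, w * w = 1 ∧ y * x0 * (x0⁻¹ * w * x0 * w) = x0 := by
  decide +kernel

theorem eq_one_of_commute_two : ∀ y : A4, y * t0 = t0 * y → y * x0 = x0 * y → y = 1 := by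
  decide +kernel

theorem exists_pow_mul : ∀ y : A4, ∃ w : A4, w * w = 1 ∧ (y = w ∨ y = x0 * w ∨ y = x0⁻¹ * w) := by
  decide +kernel

/-- A doubly transitive action with two-point stabiliser `A₄`. -/
structure Ctx (G Ω : Type*) [Group G] [MulAction G Ω] where
  /-- the first point -/
  a : Ω
  /-- the second point -/
  b : Ω
  hab : a ≠ b
  trans : ∀ c d : Ω, c ≠ d → ∃ g : G, g • a = c ∧ g • b = d
  /-- the isomorphism with `A₄` -/
  e : ↥(stabilizer G a ⊓ stabilizer G b) ≃* A4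

namespace Ctx

variable {G Ω : Type*} [Group G] [MulAction G Ω] (C : Ctx G Ω)

/-- The two-point stabiliser. -/
def H : Subgroup G := stabilizer G C.a ⊓ stabilizer G C.b

/-- The embedding of `A₄` as two-point stabiliser. -/
def ι : A4 →* G := (stabilizer G C.a ⊓ stabilizer G C.b).subtype.comp C.e.symm.toMonoidHom

theorem ι_injective : Function.Injective C.ι :=
  Subtype.val_injective.comp C.e.symm.injective

theorem ι_mem (y : A4) : C.ι y ∈ C.H := (C.e.symm y).2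

theorem mem_H_iff {g : G} : g ∈ C.H ↔ g • C.a = C.a ∧ g • C.b = C.b := Iff.rfl

theorem exists_ι {g : G} (hg : g ∈ C.H) : ∃ y : A4, C.ι y = g :=
  ⟨C.e ⟨g, hg⟩, congrArg Subtype.val (C.e.symm_apply_apply ⟨g, hg⟩)⟩

theorem ι_smul_a (y : A4) : C.ι y • C.a = C.a := (C.mem_H_iff.1 (C.ι_mem y)).1

theorem ι_smul_b (y : A4) : C.ι y • C.b = C.b := (C.mem_H_iff.1 (C.ι_mem y)).2

/-- The distinguished involution. -/
def t : G := C.ι t0

/-- The second involution. -/
def v : G := C.ι v0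

/-- The element of order three. -/
def x : G := C.ι x0

theorem t_sq : C.t * C.t = 1 := by rw [t, ← map_mul, facts.1, map_one]

theorem v_sq : C.v * C.v = 1 := by rw [v, ← map_mul, facts.2.2.1, map_one]

theorem t_ne : C.t ≠ 1 := fun h => facts.2.1 (C.ι_injective (h.trans (map_one _).symm))

theorem v_ne : C.v ≠ 1 := fun h => facts.2.2.2.1 (C.ι_injective (h.trans (map_one _).symm))

theorem t_ne_v : C.t ≠ C.v := fun h => facts.2.2.2.2.1 (C.ι_injective h)

theorem commute_t_v : Commute C.t C.v := by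
  show C.ι t0 * C.ι v0 = C.ι v0 * C.ι t0
  rw [← map_mul, ← map_mul, facts.2.2.2.2.2.1]

theorem orderOf_t : orderOf C.t = 2 :=
  orderOf_eq_prime (by rw [pow_two, C.t_sq]) C.t_ne

theorem orderOf_v : orderOf C.v = 2 :=
  orderOf_eq_prime (by rw [pow_two, C.v_sq]) C.v_ne

theorem t_mem : C.t ∈ C.H := C.ι_mem _

theorem v_mem : C.v ∈ C.H := C.ι_mem _

theorem x_mem : C.x ∈ C.H := C.ι_mem _

theorem x_cube : C.x * C.x * C.x = 1 := by
  rw [x, ← map_mul, ← map_mul, facts.2.2.2.2.2.2.2.2.1, map_one]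

/-- The four-group of the two-point stabiliser. -/
def V : Subgroup G where
  carrier := {g | g ∈ C.H ∧ g * g = 1}
  one_mem' := ⟨C.H.one_mem, one_mul 1⟩
  mul_mem' := by
    rintro g h ⟨hg, hg2⟩ ⟨hh, hh2⟩
    obtain ⟨y, rfl⟩ := C.exists_ι hg
    obtain ⟨z, rfl⟩ := C.exists_ι hh
    refine ⟨C.H.mul_mem hg hh, ?_⟩
    rw [← map_mul, ← map_one C.ι] at hg2 hh2
    have hy := C.ι_injective hg2
    have hz := C.ι_injective hh2
    rw [← map_mul, ← map_mul, ← map_one C.ι]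
    have key : ∀ y z : A4, y * y = 1 → z * z = 1 → y * z * (y * z) = 1 := by decide +kernel
    rw [key y z hy hz]
  inv_mem' := by
    rintro g ⟨hg, hg2⟩
    exact ⟨C.H.inv_mem hg, by rw [← mul_inv_rev, hg2, inv_one]⟩

theorem mem_V_iff {g : G} : g ∈ C.V ↔ g ∈ C.H ∧ g * g = 1 := Iff.rfl

theorem t_mem_V : C.t ∈ C.V := ⟨C.t_mem, C.t_sq⟩

theorem v_mem_V : C.v ∈ C.V := ⟨C.v_mem, C.v_sq⟩

theorem V_le : C.V ≤ C.H := fun _ h => h.1

theorem mem_V_cases {g : G} (hg : g ∈ C.V) : g = 1 ∨ g = C.t ∨ g = C.v ∨ g = C.t * C.v := by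
  obtain ⟨y, rfl⟩ := C.exists_ι hg.1
  have h2 := hg.2
  rw [← map_mul, ← map_one C.ι] at h2
  rcases sq_cases y (C.ι_injective h2) with rfl | rfl | rfl | rfl
  · exact Or.inl (map_one _)
  · exact Or.inr (Or.inl rfl)
  · exact Or.inr (Or.inr (Or.inl rfl))
  · exact Or.inr (Or.inr (Or.inr (map_mul _ _ _)))

theorem card_V : Nat.card C.V = 4 := by
  have hb : Function.Bijective
      (fun y : {y : A4 // y * y = 1} => (⟨C.ι y, C.ι_mem y, by rw [← map_mul, y.2, map_one]⟩ : C.V)) := by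
    refine ⟨fun y z h => Subtype.ext (C.ι_injective (congrArg Subtype.val h :)), fun g => ?_⟩
    obtain ⟨y, hy⟩ := C.exists_ι g.2.1
    refine ⟨⟨y, C.ι_injective ?_⟩, Subtype.ext hy⟩
    rw [map_mul, map_one, hy, g.2.2]
  rw [← Nat.card_eq_of_bijective _ hb, Nat.card_eq_fintype_card]
  decide +kernel

theorem commute_of_mem_V {g h : G} (hg : g ∈ C.V) (hh : h ∈ C.V) : Commute g h := by
  show g * h = h * g
  have h1 := (C.V.mul_mem hg hh).2
  calc g * h = g⁻¹ * (g * g * h * h) * h⁻¹ := by group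
    _ = g⁻¹ * h⁻¹ := by rw [hg.2, one_mul, hh.2, mul_one]
    _ = (h * g)⁻¹ := (mul_inv_rev h g).symm
    _ = h * g := by rw [inv_eq_of_mul_eq_one_right (C.V.mul_mem hh hg).2]

theorem card_H : Nat.card C.H = 12 := by
  show Nat.card ↥(stabilizer G C.a ⊓ stabilizer G C.b) = 12
  rw [Nat.card_congr C.e.toEquiv, Nat.card_eq_fintype_card]
  decide +kernel

/-- An element of the two-point stabiliser centralising `t` lies in `V`. -/
theorem mem_V_of_commute {g : G} (hg : g ∈ C.H) (hc : g * C.t = C.t * g) : g ∈ C.V := by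
  obtain ⟨y, rfl⟩ := C.exists_ι hg
  refine ⟨C.ι_mem y, ?_⟩
  have h := C.ι_injective (a₁ := y * t0) (a₂ := t0 * y) (by rw [map_mul, map_mul]; exact hc)
  rw [← map_mul, commute_cases y h, map_one]

/-- An element of the two-point stabiliser centralising `t` and `x` is trivial. -/
theorem eq_one_of_commute {g : G} (hg : g ∈ C.H) (hc : g * C.t = C.t * g)
    (hx : g * C.x = C.x * g) : g = 1 := by
  obtain ⟨y, rfl⟩ := C.exists_ι hg
  have h := C.ι_injective (a₁ := y * t0) (a₂ := t0 * y) (by rw [map_mul, map_mul]; exact hc)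
  have h' := C.ι_injective (a₁ := y * x0) (a₂ := x0 * y) (by rw [map_mul, map_mul]; exact hx)
  rw [eq_one_of_commute_two y h h', map_one]

/-- The involutions of the two-point stabiliser are conjugate to `t` by powers of `x`. -/
theorem conj_cases {g : G} (hg : g ∈ C.H) (h2 : g * g = 1) (h1 : g ≠ 1) :
    g = C.t ∨ g = C.x * C.t * C.x⁻¹ ∨ g = C.x⁻¹ * C.t * C.x := by
  obtain ⟨y, rfl⟩ := C.exists_ι hg
  rw [← map_mul, ← map_one C.ι] at h2
  rcases x0_trans y (C.ι_injective h2) (fun h => h1 (by rw [h, map_one])) with rfl | rfl | rfl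
  · exact Or.inl rfl
  · exact Or.inr (Or.inl (by rw [map_mul, map_mul, map_inv]; rfl))
  · exact Or.inr (Or.inr (by rw [map_mul, map_mul, map_inv]; rfl))

theorem isConj_t_of_mem {g : G} (hg : g ∈ C.H) (h2 : g * g = 1) (h1 : g ≠ 1) :
    ∃ y ∈ C.H, y * C.t * y⁻¹ = g := by
  rcases C.conj_cases hg h2 h1 with rfl | rfl | rfl
  · exact ⟨1, C.H.one_mem, by group⟩
  · exact ⟨C.x, C.x_mem, rfl⟩
  · exact ⟨C.x⁻¹, C.H.inv_mem C.x_mem, by group⟩

theorem conj_mem_V {g h : G} (hg : g ∈ C.H) (hh : h ∈ C.V) : g * h * g⁻¹ ∈ C.V :=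
  ⟨C.H.mul_mem (C.H.mul_mem hg hh.1) (C.H.inv_mem hg), by
    rw [show g * h * g⁻¹ * (g * h * g⁻¹) = g * (h * h) * g⁻¹ by group, hh.2, mul_one,
      mul_inv_cancel]⟩

/-- The fixed points of `t`. -/
def Δ : Set Ω := fixedBy Ω C.t

/-- The fixed points of the four-group. -/
def F : Set Ω := fixedBy Ω C.t ∩ fixedBy Ω C.v

theorem a_mem_F : C.a ∈ C.F := ⟨C.ι_smul_a _, C.ι_smul_a _⟩

theorem b_mem_F : C.b ∈ C.F := ⟨C.ι_smul_b _, C.ι_smul_b _⟩

theorem F_subset : C.F ⊆ C.Δ := Set.inter_subset_left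

theorem smul_of_mem_F {g : G} (hg : g ∈ C.V) {c : Ω} (hc : c ∈ C.F) : g • c = c := by
  rcases C.mem_V_cases hg with rfl | rfl | rfl | rfl
  · exact one_smul G c
  · exact hc.1
  · exact hc.2
  · rw [mul_smul, show C.v • c = c from hc.2, show C.t • c = c from hc.1]

/-- An element carrying `a`, `b` to two fixed points of `V` normalises `V`. -/
theorem mem_normalizer_of_F [Finite G] {g : G} (ha : g • C.a ∈ C.F) (hb : g • C.b ∈ C.F) :
    g ∈ Subgroup.normalizer (C.V : Set G) := by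
  have key : ∀ h ∈ C.V, g⁻¹ * h * g ∈ C.V := fun h hh => ⟨C.mem_H_iff.2
    ⟨by rw [mul_smul, mul_smul, C.smul_of_mem_F hh ha, inv_smul_smul],
      by rw [mul_smul, mul_smul, C.smul_of_mem_F hh hb, inv_smul_smul]⟩, by
    rw [show g⁻¹ * h * g * (g⁻¹ * h * g) = g⁻¹ * (h * h) * g by group, hh.2, mul_one,
      inv_mul_cancel]⟩
  have hi : g⁻¹ ∈ Subgroup.normalizer (C.V : Set G) := by
    refine Subgroup.mem_normalizer_fintype fun h hh => ?_
    show g⁻¹ * h * g⁻¹⁻¹ ∈ C.V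
    rw [inv_inv]
    exact key h hh
  exact inv_inv g ▸ Subgroup.inv_mem _ hi

theorem smul_mem_Δ {g : G} (hg : g * C.t = C.t * g) {c : Ω} (hc : c ∈ C.Δ) : g • c ∈ C.Δ := by
  show C.t • g • c = g • c
  rw [← mul_smul, ← hg, mul_smul, show C.t • c = c from hc]

/-- Witt's lemma for `t`. -/
theorem witt {c d : Ω} (hc : c ∈ C.Δ) (hd : d ∈ C.Δ) (hcd : c ≠ d) :
    ∃ g : G, g * C.t = C.t * g ∧ g • C.a = c ∧ g • C.b = d := by
  obtain ⟨g, ga, gb⟩ := C.trans c d hcd
  have hH : g⁻¹ * C.t * g ∈ C.H := C.mem_H_iff.2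
    ⟨by rw [mul_smul, mul_smul, ga, show C.t • c = c from hc, inv_smul_eq_iff, ga],
      by rw [mul_smul, mul_smul, gb, show C.t • d = d from hd, inv_smul_eq_iff, gb]⟩
  obtain ⟨y, hy, hyt⟩ := C.isConj_t_of_mem hH
    (by rw [show g⁻¹ * C.t * g * (g⁻¹ * C.t * g) = g⁻¹ * (C.t * C.t) * g by group, C.t_sq,
      mul_one, inv_mul_cancel])
    (fun h => C.t_ne (by
      rw [show C.t = g * (g⁻¹ * C.t * g) * g⁻¹ by group, h, mul_one, mul_inv_cancel]))
  refine ⟨g * y, ?_, by rw [mul_smul, (C.mem_H_iff.1 hy).1, ga],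
    by rw [mul_smul, (C.mem_H_iff.1 hy).2, gb]⟩
  calc g * y * C.t = g * (y * C.t * y⁻¹) * y := by group
    _ = g * (g⁻¹ * C.t * g) * y := by rw [hyt]
    _ = C.t * (g * y) := by group

/-- An involution fixing two points is conjugate to `t`. -/
theorem isConj_of_fix {i : G} (hi : i * i = 1) (hi1 : i ≠ 1) {c d : Ω} (hcd : c ≠ d)
    (hc : i • c = c) (hd : i • d = d) : IsConj C.t i := by
  obtain ⟨g, ga, gb⟩ := C.trans c d hcd
  have hH : g⁻¹ * i * g ∈ C.H := C.mem_H_iff.2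
    ⟨by rw [mul_smul, mul_smul, ga, hc, inv_smul_eq_iff, ga],
      by rw [mul_smul, mul_smul, gb, hd, inv_smul_eq_iff, gb]⟩
  obtain ⟨y, -, hyt⟩ := C.isConj_t_of_mem hH
    (by rw [show g⁻¹ * i * g * (g⁻¹ * i * g) = g⁻¹ * (i * i) * g by group, hi, mul_one,
      inv_mul_cancel])
    (fun h => hi1 (by
      rw [show i = g * (g⁻¹ * i * g) * g⁻¹ by group, h, mul_one, mul_inv_cancel]))
  refine isConj_iff.2 ⟨g * y, ?_⟩
  calc g * y * C.t * (g * y)⁻¹ = g * (y * C.t * y⁻¹) * g⁻¹ := by group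
    _ = i := by rw [hyt]; group

/-- A subgroup transitive on the ordered pairs of a set containing `a`, `b`. -/
theorem card_eq_pairs [Finite G] [Finite Ω] (K : Subgroup G) (D : Set Ω) (ha : C.a ∈ D)
    (hb : C.b ∈ D) (hmap : ∀ g ∈ K, ∀ c ∈ D, g • c ∈ D)
    (htr : ∀ c ∈ D, ∀ d ∈ D, c ≠ d → ∃ g ∈ K, g • C.a = c ∧ g • C.b = d) :
    Nat.card K = Nat.card D * (Nat.card D - 1) * Nat.card (K ⊓ C.H : Subgroup G) := by
  classical
  haveI := Fintype.ofFinite Ω
  have h1 := Subgroup.index_mul_card (stabilizer ↥K (C.a, C.b))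
  rw [index_stabilizer] at h1
  have hst : Nat.card (stabilizer ↥K (C.a, C.b)) = Nat.card (K ⊓ C.H : Subgroup G) := by
    refine Nat.card_congr
      { toFun := fun g => ⟨g.1.1, g.1.2, C.mem_H_iff.2 ?_⟩
        invFun := fun g => ⟨⟨g.1, g.2.1⟩, ?_⟩
        left_inv := fun g => rfl
        right_inv := fun g => rfl }
    · have h := g.2
      rw [mem_stabilizer_iff, Prod.smul_mk, Prod.mk.injEq] at h
      exact h
    · have h := C.mem_H_iff.1 g.2.2
      rw [mem_stabilizer_iff, Prod.smul_mk, Prod.mk.injEq]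
      exact h
  have horb : orbit ↥K (C.a, C.b) = (D.toFinset.offDiag : Set (Ω × Ω)) := by
    ext ⟨c, d⟩
    simp only [mem_orbit_iff, Finset.mem_coe, Finset.mem_offDiag, Set.mem_toFinset, Prod.smul_mk,
      Prod.mk.injEq, Subtype.exists, Subgroup.mk_smul]
    constructor
    · rintro ⟨g, hg, rfl, rfl⟩
      exact ⟨hmap g hg _ ha, hmap g hg _ hb, fun h => C.hab ((MulAction.injective g) h)⟩
    · rintro ⟨hc, hd, hcd⟩
      obtain ⟨g, hg, h1, h2⟩ := htr c hc d hd hcd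
      exact ⟨g, hg, h1, h2⟩
  have hD : D.toFinset.card = Nat.card D := by
    rw [Set.toFinset_card, Nat.card_eq_fintype_card]
  rw [← h1, hst, horb, Set.ncard_coe_finset, Finset.offDiag_card, hD, Nat.mul_sub, mul_one]

include C in
theorem card_G [Finite G] [Finite Ω] :
    Nat.card G = 12 * Nat.card Ω * (Nat.card Ω - 1) := by
  have h := C.card_eq_pairs ⊤ Set.univ trivial trivial (fun _ _ _ _ => trivial)
    fun c _ d _ hcd => by
      obtain ⟨g, h1, h2⟩ := C.trans c d hcd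
      exact ⟨g, trivial, h1, h2⟩
  rw [Subgroup.card_top, top_inf_eq, C.card_H, Nat.card_congr (Equiv.Set.univ Ω)] at h
  rw [h]
  ring

theorem centralizer_inf_H :
    (Subgroup.centralizer ({C.t} : Set G) ⊓ C.H : Subgroup G) = C.V := by
  ext g
  refine ⟨fun h => C.mem_V_of_commute h.2 (Subgroup.mem_centralizer_singleton_iff.1 h.1),
    fun h => ⟨Subgroup.mem_centralizer_singleton_iff.2 ?_, h.1⟩⟩
  exact (C.commute_of_mem_V h C.t_mem_V).eq

theorem card_centralizer [Finite G] [Finite Ω] :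
    Nat.card (Subgroup.centralizer ({C.t} : Set G)) =
      4 * Nat.card C.Δ * (Nat.card C.Δ - 1) := by
  have h := C.card_eq_pairs (Subgroup.centralizer ({C.t} : Set G)) C.Δ (C.ι_smul_a _)
    (C.ι_smul_b _) (fun g hg c hc => C.smul_mem_Δ (Subgroup.mem_centralizer_singleton_iff.1 hg) hc)
    fun c hc d hd hcd => by
      obtain ⟨g, h0, h1, h2⟩ := C.witt hc hd hcd
      exact ⟨g, Subgroup.mem_centralizer_singleton_iff.2 h0, h1, h2⟩
  rw [C.centralizer_inf_H, C.card_V] at h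
  rw [h]
  ring

theorem smul_mem_F {g : G} (hg : g ∈ Subgroup.normalizer (C.V : Set G)) {c : Ω} (hc : c ∈ C.F) :
    g • c ∈ C.F := by
  have key : ∀ h ∈ C.V, h • g • c = g • c := fun h hh => by
    have h' : g⁻¹ * h * g ∈ C.V :=
      (Subgroup.mem_normalizer_iff''.1 hg h).1 hh
    calc h • g • c = g • (g⁻¹ * h * g) • c := by
          rw [← mul_smul, ← mul_smul]
          congr 1
          group
      _ = g • c := by rw [C.smul_of_mem_F h' hc]
  exact ⟨key _ C.t_mem_V, key _ C.v_mem_V⟩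

theorem H_le_normalizer [Finite G] : C.H ≤ Subgroup.normalizer (C.V : Set G) := fun _ hg =>
  C.mem_normalizer_of_F (by rw [(C.mem_H_iff.1 hg).1]; exact C.a_mem_F)
    (by rw [(C.mem_H_iff.1 hg).2]; exact C.b_mem_F)

theorem card_normalizer [Finite G] [Finite Ω] :
    Nat.card (Subgroup.normalizer (C.V : Set G)) =
      12 * Nat.card C.F * (Nat.card C.F - 1) := by
  have h := C.card_eq_pairs (Subgroup.normalizer (C.V : Set G)) C.F C.a_mem_F
    C.b_mem_F (fun g hg c hc => C.smul_mem_F hg hc)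
    fun c hc d hd hcd => by
      obtain ⟨g, h1, h2⟩ := C.trans c d hcd
      exact ⟨g, C.mem_normalizer_of_F (h1 ▸ hc) (h2 ▸ hd), h1, h2⟩
  rw [inf_eq_right.2 C.H_le_normalizer, C.card_H] at h
  rw [h]
  ring

theorem two_le_k [Finite Ω] : 2 ≤ Nat.card C.Δ := by
  haveI : Nontrivial C.Δ :=
    ⟨⟨C.a, C.ι_smul_a _⟩, ⟨C.b, C.ι_smul_b _⟩, fun h => C.hab (congrArg Subtype.val h)⟩
  exact Finite.one_lt_card

theorem two_le_f [Finite Ω] : 2 ≤ Nat.card C.F := by
  haveI : Nontrivial C.F :=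
    ⟨⟨C.a, C.a_mem_F⟩, ⟨C.b, C.b_mem_F⟩, fun h => C.hab (congrArg Subtype.val h)⟩
  exact Finite.one_lt_card

theorem f_le_k [Finite Ω] : Nat.card C.F ≤ Nat.card C.Δ :=
  Nat.card_mono (Set.toFinite _) C.F_subset

/-- The action being faithful, `t` moves a point; so there is an element of order two swapping
`a` and `b`. -/
theorem exists_swapper [FaithfulSMul G Ω] :
    ∃ s : G, s * s = 1 ∧ s • C.a = C.b ∧ s • C.b = C.a ∧ IsConj C.t s := by
  obtain ⟨c, hc⟩ : ∃ c : Ω, C.t • c ≠ c := by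
    by_contra h
    push Not at h
    exact C.t_ne (eq_of_smul_eq_smul (α := Ω) fun c => by rw [h c, one_smul])
  have hct : c ≠ C.t • c := fun h => hc h.symm
  obtain ⟨g, ga, gb⟩ := C.trans c (C.t • c) hct
  refine ⟨g⁻¹ * C.t * g, ?_, ?_, ?_, isConj_iff.2 ⟨g⁻¹, by group⟩⟩
  · rw [show g⁻¹ * C.t * g * (g⁻¹ * C.t * g) = g⁻¹ * (C.t * C.t) * g by group, C.t_sq,
      mul_one, inv_mul_cancel]
  · rw [mul_smul, mul_smul, ga, inv_smul_eq_iff, gb]
  · rw [mul_smul, mul_smul, gb, ← mul_smul C.t, C.t_sq, one_smul, inv_smul_eq_iff, ga]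

end Ctx

end CfsgLib.TwoPointAltFour
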