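import Cfsg.Agent.Lib.TwoPointAltFour.Setup
import Cfsg.Agent.Lib.SmallGroups.Counting

/-!
Doubly transitive groups with two-point stabiliser `A₄`: the involutions interchanging the two
points, and the equation `3 (n - k) = N k (k - 1)`.
-/

set_option autoImplicit false

open MulAction

namespace CfsgLib.TwoPointAltFour

set_option synthInstance.maxSize 4000 in
set_option synthInstance.maxHeartbeats 200000 in
theorem four_cases : ∀ w w' : A4, w * w = 1 → w ≠ 1 → w' * w' = 1 → w' ≠ 1 → w ≠ w' →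
    ∀ z : A4, z * z = 1 → z = 1 ∨ z = w ∨ z = w' ∨ z = w * w' := by
  decide +kernel

end CfsgLib.TwoPointAltFour

namespace CfsgLib.TwoPointAltFour.Ctx

variable {G Ω : Type*} [Group G] [MulAction G Ω] (C : Ctx G Ω)

/-- The involutions interchanging `a` and `b`. -/
def Swap : Set G := {g | g * g = 1 ∧ g • C.a = C.b}

theorem mem_Swap_iff {g : G} : g ∈ C.Swap ↔ g * g = 1 ∧ g • C.a = C.b := Iff.rfl

theorem swap_smul_b {g : G} (hg : g ∈ C.Swap) : g • C.b = C.a := by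
  rw [← hg.2, ← mul_smul, hg.1, one_smul]

theorem swap_ne_one {g : G} (hg : g ∈ C.Swap) : g ≠ 1 := fun h =>
  C.hab (by rw [← hg.2, h, one_smul])

/-- The number of swappers conjugate to `t`. -/
noncomputable def N : ℕ := Nat.card {g : G // g ∈ C.Swap ∧ IsConj C.t g}

theorem ne_of_isConj_t {i : G} (hi : IsConj C.t i) : i * i = 1 ∧ i ≠ 1 := by
  obtain ⟨g, rfl⟩ := isConj_iff.1 hi
  refine ⟨?_, fun h => C.t_ne ?_⟩
  · rw [show g * C.t * g⁻¹ * (g * C.t * g⁻¹) = g * (C.t * C.t) * g⁻¹ by group, C.t_sq, mul_one,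
      mul_inv_cancel]
  · rw [show C.t = g⁻¹ * (g * C.t * g⁻¹) * g by group, h, mul_one, inv_mul_cancel]

/-- The conjugates of `t` fix as many points as `t`. -/
theorem card_fixed {i : G} (hi : IsConj C.t i) :
    Nat.card (fixedBy Ω i) = Nat.card C.Δ := by
  obtain ⟨g, rfl⟩ := isConj_iff.1 hi
  refine (Nat.card_congr ((MulAction.toPerm g).subtypeEquiv fun c => ?_)).symm
  show C.t • c = c ↔ (g * C.t * g⁻¹) • g • c = g • c
  rw [mul_smul, mul_smul, inv_smul_smul, smul_left_cancel_iff]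

theorem card_moved [Finite Ω] {i : G} (hi : IsConj C.t i) :
    Nat.card {c : Ω // i • c ≠ c} = Nat.card Ω - Nat.card C.Δ := by
  classical
  haveI := Fintype.ofFinite Ω
  rw [← C.card_fixed hi, Nat.card_eq_fintype_card, Fintype.card_subtype_compl,
    Nat.card_eq_fintype_card, Nat.card_eq_fintype_card]
  rfl

/-- The key equation. -/
theorem three_mul_sub [Finite G] [Finite Ω] :
    3 * (Nat.card Ω - Nat.card C.Δ) = C.N * (Nat.card C.Δ * (Nat.card C.Δ - 1)) := by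
  classical
  choose g hga hgb using fun p : {p : Ω × Ω // p.1 ≠ p.2} => C.trans p.1.1 p.1.2 p.2
  let P := Σ i : {i : G // IsConj C.t i}, {c : Ω // i.1 • c ≠ c}
  have hP1 : Nat.card P = Nat.card {i : G // IsConj C.t i} * (Nat.card Ω - Nat.card C.Δ) := by
    haveI := Fintype.ofFinite G
    haveI := Fintype.ofFinite Ω
    rw [Nat.card_sigma, Finset.sum_congr rfl (fun i _ => C.card_moved i.2), Finset.sum_const,
      Finset.card_univ, smul_eq_mul, ← Nat.card_eq_fintype_card]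
  have hP2 : Nat.card P = Nat.card {p : Ω × Ω // p.1 ≠ p.2} * C.N := by
    rw [Ctx.N, ← Nat.card_prod]
    have hsq : ∀ i : G, IsConj C.t i → ∀ c : Ω, i • i • c = c := fun i hi c => by
      rw [← mul_smul, (C.ne_of_isConj_t hi).1, one_smul]
    refine Nat.card_congr
      { toFun := fun z => (⟨(z.2.1, z.1.1 • z.2.1), Ne.symm z.2.2⟩,
          ⟨(g ⟨(z.2.1, z.1.1 • z.2.1), Ne.symm z.2.2⟩)⁻¹ * z.1.1 *
            g ⟨(z.2.1, z.1.1 • z.2.1), Ne.symm z.2.2⟩, ⟨?_, ?_⟩, ?_⟩)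
        invFun := fun z => ⟨⟨g z.1 * z.2.1 * (g z.1)⁻¹, ?_⟩, ⟨z.1.1.1, ?_⟩⟩
        left_inv := ?_
        right_inv := ?_ }
    · set g' := g ⟨(z.2.1, z.1.1 • z.2.1), Ne.symm z.2.2⟩
      rw [show g'⁻¹ * z.1.1 * g' * (g'⁻¹ * z.1.1 * g') = g'⁻¹ * (z.1.1 * z.1.1) * g' by group,
        (C.ne_of_isConj_t z.1.2).1, mul_one, inv_mul_cancel]
    · rw [mul_smul, mul_smul, hga, inv_smul_eq_iff, hgb]
    · exact z.1.2.trans (isConj_iff.2 ⟨(g ⟨(z.2.1, z.1.1 • z.2.1), Ne.symm z.2.2⟩)⁻¹, by group⟩)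
    · exact z.2.2.2.trans (isConj_iff.2 ⟨g z.1, rfl⟩)
    · show (g z.1 * z.2.1 * (g z.1)⁻¹) • z.1.1.1 ≠ z.1.1.1
      have e1 : (g z.1)⁻¹ • z.1.1.1 = C.a := by rw [inv_smul_eq_iff, hga]
      rw [mul_smul, mul_smul, e1, z.2.2.1.2, hgb]
      exact z.1.2.symm
    · rintro ⟨⟨i, hi⟩, c, hc⟩
      refine Sigma.subtype_ext (Subtype.ext ?_) rfl
      show g _ * ((g _)⁻¹ * i * g _) * (g _)⁻¹ = i
      group
    · rintro ⟨⟨⟨c, d⟩, hcd⟩, s, hs, hst⟩
      have key : (g ⟨(c, d), hcd⟩ * s * (g ⟨(c, d), hcd⟩)⁻¹) • c = d := by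
        have e1 : (g ⟨(c, d), hcd⟩)⁻¹ • c = C.a := by rw [inv_smul_eq_iff, hga]
        rw [mul_smul, mul_smul, e1, hs.2, hgb]
      have hp : (⟨(c, (g ⟨(c, d), hcd⟩ * s * (g ⟨(c, d), hcd⟩)⁻¹) • c),
          by rw [key]; exact hcd⟩ : {p : Ω × Ω // p.1 ≠ p.2}) = ⟨(c, d), hcd⟩ :=
        Subtype.ext (Prod.ext rfl key)
      refine Prod.ext hp (Subtype.ext ?_)
      show (g _)⁻¹ * _ * g _ = s
      rw [hp]
      group
  have hpairs : Nat.card {p : Ω × Ω // p.1 ≠ p.2} = Nat.card Ω * (Nat.card Ω - 1) := by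
    haveI := Fintype.ofFinite Ω
    have e : {p : Ω × Ω // p.1 ≠ p.2} ≃ ↥((Finset.univ : Finset Ω).offDiag) :=
      Equiv.subtypeEquivRight fun p => by simp
    rw [Nat.card_congr e, Nat.card_eq_fintype_card, Fintype.card_coe, Finset.offDiag_card,
      Finset.card_univ, ← Nat.card_eq_fintype_card, Nat.mul_sub, mul_one]
  have hcl := CfsgLib.SmallGroups.card_isConj_mul_card_centralizer C.t
  rw [C.card_centralizer, C.card_G] at hcl
  have hn1 : 0 < Nat.card Ω * (Nat.card Ω - 1) := by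
    rw [← hpairs]
    exact Nat.card_pos_iff.2 ⟨⟨⟨(C.a, C.b), C.hab⟩⟩, inferInstance⟩
  have heq : Nat.card {i : G // IsConj C.t i} * (Nat.card Ω - Nat.card C.Δ) =
      Nat.card Ω * (Nat.card Ω - 1) * C.N := by rw [← hpairs, ← hP2, hP1]
  set I := Nat.card {i : G // IsConj C.t i}
  set n := Nat.card Ω
  set k := Nat.card C.Δ
  refine Nat.eq_of_mul_eq_mul_left (show 0 < 4 * (n * (n - 1)) by omega) ?_
  calc 4 * (n * (n - 1)) * (3 * (n - k)) = I * (4 * k * (k - 1)) * (n - k) := by rw [hcl]; ring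
    _ = 4 * (k * (k - 1)) * (I * (n - k)) := by ring
    _ = 4 * (n * (n - 1)) * (C.N * (k * (k - 1))) := by rw [heq]; ring

/-- Some element interchanging `a`, `b` centralises the whole two-point stabiliser. -/
def IsDir : Prop :=
  ∃ u : G, u • C.a = C.b ∧ u * u = 1 ∧ ∀ h ∈ C.H, u * h = h * u

/-- No element interchanging `a` and `b` centralises `V`. -/
def IsSym : Prop :=
  ∀ g : G, g • C.a = C.b → g • C.b = C.a → ¬ (g * C.t = C.t * g ∧ g * C.v = C.v * g)

theorem commute_V {g : G} (h1 : g * C.t = C.t * g) (h2 : g * C.v = C.v * g) {h : G}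
    (hh : h ∈ C.V) : Commute g h := by
  rcases C.mem_V_cases hh with rfl | rfl | rfl | rfl
  · exact Commute.one_right g
  · exact h1
  · exact h2
  · exact (show Commute g C.t from h1).mul_right (show Commute g C.v from h2)

/-- An element of the two-point stabiliser commuting with `V` and with `x` is trivial; so are
squares of interchanging elements that centralise them. -/
theorem commute_H {g : G} (h1 : ∀ h ∈ C.V, Commute g h) (h2 : Commute g C.x) :
    ∀ h ∈ C.H, g * h = h * g := by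
  intro h hh
  obtain ⟨y, rfl⟩ := C.exists_ι hh
  obtain ⟨w, hw, hy⟩ := exists_pow_mul y
  have hwV : C.ι w ∈ C.V := ⟨C.ι_mem w, by rw [← map_mul, hw, map_one]⟩
  rcases hy with rfl | rfl | rfl
  · exact (h1 _ hwV).eq
  · rw [map_mul]
    exact (h2.mul_right (h1 _ hwV)).eq
  · rw [map_mul, map_inv]
    exact (h2.inv_right.mul_right (h1 _ hwV)).eq

theorem dir_or_sym [Finite G] : C.IsDir ∨ C.IsSym := by
  classical
  by_cases hS : C.IsSym
  · exact Or.inr hS
  left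
  simp only [IsSym, not_forall, not_not] at hS
  obtain ⟨g, ga, gb, g1, g2⟩ := hS
  have gH : ∀ h ∈ C.H, g * h * g⁻¹ ∈ C.H := fun h hh => C.mem_H_iff.2
    ⟨by rw [mul_smul, mul_smul, show g⁻¹ • C.a = C.b by rw [inv_smul_eq_iff, gb],
      (C.mem_H_iff.1 hh).2, gb],
    by rw [mul_smul, mul_smul, show g⁻¹ • C.b = C.a by rw [inv_smul_eq_iff, ga],
      (C.mem_H_iff.1 hh).1, ga]⟩
  have gV : ∀ {h : G}, h ∈ C.V → Commute g h := fun hh => C.commute_V g1 g2 hh
  have gx : g * C.x * g⁻¹ * C.x⁻¹ ∈ C.V := by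
    refine C.mem_V_of_commute (C.H.mul_mem (gH _ C.x_mem) (C.H.inv_mem C.x_mem)) ?_
    have k1 : C.x⁻¹ * C.t * C.x ∈ C.V := by
      have := C.conj_mem_V (C.H.inv_mem C.x_mem) C.t_mem_V
      rwa [inv_inv] at this
    calc g * C.x * g⁻¹ * C.x⁻¹ * C.t = g * C.x * (g⁻¹ * (C.x⁻¹ * C.t * C.x)) * C.x⁻¹ := by group
      _ = g * C.x * ((C.x⁻¹ * C.t * C.x) * g⁻¹) * C.x⁻¹ := by rw [((gV k1).inv_left).eq]
      _ = g * C.t * C.x * g⁻¹ * C.x⁻¹ := by group
      _ = C.t * (g * C.x * g⁻¹ * C.x⁻¹) := by rw [g1]; group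
  obtain ⟨y, hy⟩ := C.exists_ι gx.1
  have hy2 : y * y = 1 := C.ι_injective (by rw [map_mul, hy, gx.2, map_one])
  obtain ⟨w, hw, hwy⟩ := v_adjust y hy2
  have hwV : C.ι w ∈ C.V := ⟨C.ι_mem w, by rw [← map_mul, hw, map_one]⟩
  have hV : ∀ h ∈ C.V, Commute (g * C.ι w) h := fun h hh =>
    (gV hh).mul_left (C.commute_of_mem_V hwV hh)
  have hx : g * C.ι w * C.x = C.x * (g * C.ι w) := by
    have k1 : C.x⁻¹ * C.ι w * C.x ∈ C.V := by
      have := C.conj_mem_V (C.H.inv_mem C.x_mem) hwV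
      rwa [inv_inv] at this
    have hwi : (C.ι w)⁻¹ = C.ι w := inv_eq_of_mul_eq_one_right hwV.2
    have e : g * C.x * g⁻¹ = C.ι y * C.x := by rw [hy]; group
    have h' : C.ι y * C.x * (C.x⁻¹ * C.ι w * C.x * C.ι w) = C.x := by
      have := congrArg C.ι hwy
      rwa [map_mul, map_mul, map_mul, map_mul, map_mul, map_inv] at this
    have h'' : g * C.ι w * C.x * (g * C.ι w)⁻¹ = C.x := by
      calc g * C.ι w * C.x * (g * C.ι w)⁻¹
          = g * C.x * (C.x⁻¹ * C.ι w * C.x * (C.ι w)⁻¹) * g⁻¹ := by group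
        _ = g * C.x * ((C.x⁻¹ * C.ι w * C.x * C.ι w) * g⁻¹) := by rw [hwi, mul_assoc]
        _ = g * C.x * (g⁻¹ * (C.x⁻¹ * C.ι w * C.x * C.ι w)) := by
            rw [((gV (C.V.mul_mem k1 hwV)).inv_left).eq]
        _ = g * C.x * g⁻¹ * (C.x⁻¹ * C.ι w * C.x * C.ι w) := by group
        _ = C.x := by rw [e, h']
    exact mul_inv_eq_iff_eq_mul.1 h''
  have hH := C.commute_H hV hx
  refine ⟨g * C.ι w, by rw [mul_smul, C.ι_smul_a, ga], ?_, hH⟩
  have ea : (g * C.ι w) • C.a = C.b := by rw [mul_smul, C.ι_smul_a, ga]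
  have eb : (g * C.ι w) • C.b = C.a := by rw [mul_smul, C.ι_smul_b, gb]
  have h2H : g * C.ι w * (g * C.ι w) ∈ C.H := C.mem_H_iff.2
    ⟨by rw [mul_smul (g * C.ι w), ea, eb], by rw [mul_smul (g * C.ι w), eb, ea]⟩
  exact C.eq_one_of_commute h2H
    ((hV C.t C.t_mem_V).mul_left (hV C.t C.t_mem_V)).eq
    ((show Commute (g * C.ι w) C.x from hx).mul_left (show Commute (g * C.ι w) C.x from hx)).eq

section Dir

variable {u : G} (hua : u • C.a = C.b) (hu2 : u * u = 1) (huH : ∀ h ∈ C.H, u * h = h * u)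
include hua hu2 huH

/-- In the direct case the swappers are `u` times elements of `V`. -/
theorem swap_iff_dir {g : G} : g ∈ C.Swap ↔ ∃ w ∈ C.V, g = u * w := by
  have hub : u • C.b = C.a := C.swap_smul_b ⟨hu2, hua⟩
  constructor
  · intro hg
    refine ⟨u * g, ?_, by rw [← mul_assoc, hu2, one_mul]⟩
    have hH : u * g ∈ C.H := C.mem_H_iff.2
      ⟨by rw [mul_smul, hg.2, hub], by rw [mul_smul, C.swap_smul_b hg, hua]⟩
    refine ⟨hH, ?_⟩
    have hc : u * (u * g) = u * g * u := huH _ hH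
    calc u * g * (u * g) = u * g * u * g := by group
      _ = u * (u * g) * g := by rw [hc]
      _ = u * u * (g * g) := by group
      _ = 1 := by rw [hu2, hg.1, mul_one]
  · rintro ⟨w, hw, rfl⟩
    refine ⟨?_, by rw [mul_smul, (C.mem_H_iff.1 hw.1).1, hua]⟩
    calc u * w * (u * w) = u * (w * u) * w := by group
      _ = u * (u * w) * w := by rw [huH w hw.1]
      _ = u * u * (w * w) := by group
      _ = 1 := by rw [hu2, hw.2, mul_one]

/-- The three swappers other than `u` are conjugate. -/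
theorem isConj_dir {w : G} (hw : w ∈ C.V) (hw1 : w ≠ 1) : IsConj (u * C.t) (u * w) := by
  obtain ⟨y, hy, hyt⟩ := C.isConj_t_of_mem hw.1 hw.2 hw1
  refine isConj_iff.2 ⟨y, ?_⟩
  rw [← hyt, show y * (u * C.t) * y⁻¹ = y * u * C.t * y⁻¹ by group, ← huH y hy]
  group

/-- The possible values of `N` in the direct case. -/
theorem N_dir [Finite G] [FaithfulSMul G Ω] :
    (IsConj C.t u ∧ ¬ IsConj C.t (u * C.t) ∧ C.N = 1) ∨
      (¬ IsConj C.t u ∧ IsConj C.t (u * C.t) ∧ C.N = 3) ∨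
      (IsConj C.t u ∧ IsConj C.t (u * C.t) ∧ C.N = 4) := by
  classical
  have hswap := @swap_iff_dir G Ω _ _ C u hua hu2 huH
  have e : {g : G // g ∈ C.Swap ∧ IsConj C.t g} ≃ {w : C.V // IsConj C.t (u * w)} :=
    { toFun := fun g => ⟨⟨u * g.1, by
          obtain ⟨w, hw, he⟩ := hswap.1 g.2.1
          rw [he, ← mul_assoc, hu2, one_mul]
          exact hw⟩, by
          show IsConj C.t (u * (u * g.1))
          rw [← mul_assoc, hu2, one_mul]
          exact g.2.2⟩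
      invFun := fun w => ⟨u * w.1, hswap.2 ⟨w.1, w.1.2, rfl⟩, w.2⟩
      left_inv := fun g => Subtype.ext (by
        show u * (u * g.1) = g.1
        rw [← mul_assoc, hu2, one_mul])
      right_inv := fun w => Subtype.ext (Subtype.ext (by
        show u * (u * w.1) = w.1
        rw [← mul_assoc, hu2, one_mul])) }
  have hN : C.N = Nat.card {w : C.V // IsConj C.t (u * w)} := Nat.card_congr e
  have hothers : ∀ w : C.V, w ≠ 1 → (IsConj C.t (u * w) ↔ IsConj C.t (u * C.t)) := fun w hw => by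
    have h := @isConj_dir G Ω _ _ C u hua hu2 huH (w : G) w.2 (fun h => hw (Subtype.ext h))
    exact ⟨fun h' => h'.trans h.symm, fun h' => h'.trans h⟩
  have hone : IsConj C.t (u * ((1 : C.V) : G)) ↔ IsConj C.t u := by
    rw [OneMemClass.coe_one, mul_one]
  have hcard : Nat.card C.V = 4 := C.card_V
  haveI := Fintype.ofFinite C.V
  rw [hN]
  by_cases h1 : IsConj C.t u <;> by_cases h2 : IsConj C.t (u * C.t)
  · refine Or.inr (Or.inr ⟨h1, h2, ?_⟩)
    rw [Nat.card_congr (Equiv.subtypeUnivEquiv fun w => ?_), hcard]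
    by_cases hw : w = 1
    · rw [hw]; exact hone.2 h1
    · exact (hothers w hw).2 h2
  · refine Or.inl ⟨h1, h2, Nat.card_eq_one_iff_unique.2 ⟨⟨fun p q => Subtype.ext ?_⟩,
      ⟨⟨1, hone.2 h1⟩⟩⟩⟩
    have : ∀ p : {w : C.V // IsConj C.t (u * w)}, p.1 = 1 := fun p => by
      by_contra hp
      exact h2 ((hothers _ hp).1 p.2)
    rw [this p, this q]
  · refine Or.inr (Or.inl ⟨h1, h2, ?_⟩)
    rw [Nat.card_congr (Equiv.subtypeEquivRight (q := fun w : C.V => w ≠ 1) fun w =>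
      ⟨fun hw h => h1 (hone.1 (h ▸ hw)), fun hw => (hothers w hw).2 h2⟩),
      Nat.card_eq_fintype_card, Fintype.card_subtype_compl, Fintype.card_subtype_eq,
      ← Nat.card_eq_fintype_card, hcard]
  · exfalso
    -- some swapper is conjugate to `t`
    obtain ⟨s, hs2, hsa, -, hst⟩ := C.exists_swapper
    obtain ⟨w, hw, rfl⟩ := hswap.1 ⟨hs2, hsa⟩
    by_cases hw1 : w = 1
    · exact h1 (by rwa [hw1, mul_one] at hst)
    · exact h2 ((hothers ⟨w, hw⟩ fun h => hw1 (congrArg Subtype.val h)).1 hst)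

end Dir

section Sym

variable [FaithfulSMul G Ω] (hS : C.IsSym)
include hS

/-- There is a swapper commuting with `t`, conjugate to `t`. -/
theorem exists_swap_commute : ∃ s ∈ C.Swap, s * C.t = C.t * s ∧ IsConj C.t s := by
  obtain ⟨s, hs2, hsa, hsb, hst⟩ := C.exists_swapper
  have hsi : s⁻¹ = s := inv_eq_of_mul_eq_one_right hs2
  have hH : ∀ h ∈ C.H, s * h * s ∈ C.H := fun h hh => C.mem_H_iff.2
    ⟨by rw [mul_smul, mul_smul, hsa, (C.mem_H_iff.1 hh).2, hsb],
      by rw [mul_smul, mul_smul, hsb, (C.mem_H_iff.1 hh).1, hsa]⟩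
  have hVV : ∀ h ∈ C.V, s * h * s ∈ C.V := fun h hh => ⟨hH h hh.1, by
    rw [show s * h * s * (s * h * s) = s * h * (s * s) * h * s by group, hs2, mul_one,
      mul_assoc s h h, hh.2, mul_one, hs2]⟩
  -- some non-trivial element of `V` is fixed
  obtain ⟨w, hw, hw1, hsw⟩ : ∃ w ∈ C.V, w ≠ 1 ∧ s * w * s = w := by
    by_cases h : s * C.t * s = C.t
    · exact ⟨C.t, C.t_mem_V, C.t_ne, h⟩
    · refine ⟨C.t * (s * C.t * s), C.V.mul_mem C.t_mem_V (hVV _ C.t_mem_V), fun e => h ?_, ?_⟩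
      · rw [← inv_eq_of_mul_eq_one_right e, inv_eq_of_mul_eq_one_right C.t_sq]
      · calc s * (C.t * (s * C.t * s)) * s = s * C.t * s * C.t * (s * s) := by group
          _ = _ := by
            rw [hs2, mul_one, (C.commute_of_mem_V (hVV _ C.t_mem_V) C.t_mem_V).eq]
  obtain ⟨y, hy, hyt⟩ := C.isConj_t_of_mem hw.1 hw.2 hw1
  refine ⟨y⁻¹ * s * y, ⟨?_, ?_⟩, ?_, hst.trans (isConj_iff.2 ⟨y⁻¹, by group⟩)⟩
  · rw [show y⁻¹ * s * y * (y⁻¹ * s * y) = y⁻¹ * (s * s) * y by group, hs2, mul_one,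
      inv_mul_cancel]
  · rw [mul_smul, mul_smul, (C.mem_H_iff.1 hy).1, hsa, inv_smul_eq_iff, (C.mem_H_iff.1 hy).2]
  · have hc : s * w = w * s := by
      conv_rhs => rw [← hsw]
      rw [mul_assoc (s * w), hs2, mul_one]
    rw [← hyt] at hc
    calc y⁻¹ * s * y * C.t = y⁻¹ * (s * (y * C.t * y⁻¹)) * y := by group
      _ = y⁻¹ * (y * C.t * y⁻¹ * s) * y := by rw [hc]
      _ = C.t * (y⁻¹ * s * y) := by group

variable {s : G} (hs : s ∈ C.Swap) (hst : s * C.t = C.t * s)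
include hs hst

/-- Conjugation by a swapper commuting with `t` interchanges `v` and `t v`. -/
theorem swap_conj_v : s * C.v * s = C.t * C.v := by
  have hH : s * C.v * s ∈ C.V := ⟨C.mem_H_iff.2
    ⟨by rw [mul_smul, mul_smul, hs.2, (C.mem_H_iff.1 C.v_mem).2, C.swap_smul_b hs],
      by rw [mul_smul, mul_smul, C.swap_smul_b hs, (C.mem_H_iff.1 C.v_mem).1, hs.2]⟩, by
    rw [show s * C.v * s * (s * C.v * s) = s * C.v * (s * s) * C.v * s by group, hs.1, mul_one,
      mul_assoc s C.v C.v, C.v_sq, mul_one, hs.1]⟩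
  rcases C.mem_V_cases hH with e | e | e | e
  · refine absurd ?_ C.v_ne
    calc C.v = s * s * C.v * (s * s) := by rw [hs.1]; group
      _ = s * (s * C.v * s) * s := by group
      _ = 1 := by rw [e, mul_one, hs.1]
  · refine absurd ?_ C.t_ne_v.symm
    calc C.v = s * s * C.v * (s * s) := by rw [hs.1]; group
      _ = s * (s * C.v * s) * s := by group
      _ = C.t := by rw [e, hst, mul_assoc, hs.1, mul_one]
  · refine absurd ⟨hst, ?_⟩ (hS s hs.2 (C.swap_smul_b hs))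
    conv_rhs => rw [← e]
    rw [mul_assoc (s * C.v), hs.1, mul_one]
  · exact e

theorem swap_commute_t {g : G} (hg : g ∈ C.Swap) (hgt : g * C.t = C.t * g) :
    g = s ∨ g = s * C.t := by
  have hH : s * g ∈ C.H := C.mem_H_iff.2
    ⟨by rw [mul_smul, hg.2, C.swap_smul_b hs], by rw [mul_smul, C.swap_smul_b hg, hs.2]⟩
  have hV : s * g ∈ C.V := C.mem_V_of_commute hH
    ((show Commute s C.t from hst).mul_left (show Commute g C.t from hgt)).eq
  have he : g = s * (s * g) := by rw [← mul_assoc, hs.1, one_mul]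
  have hv := @swap_conj_v G Ω _ _ C _ hS s hs hst
  have hbad : ∀ w, w = C.v ∨ w = C.t * C.v → s * w * (s * w) = 1 → False := by
    rintro w (rfl | rfl) h
    · rw [show s * C.v * (s * C.v) = s * C.v * s * C.v by group, hv, mul_assoc, C.v_sq,
        mul_one] at h
      exact C.t_ne h
    · have hw : s * (C.t * C.v) * s = C.v := by
        rw [← hv, show s * (s * C.v * s) * s = s * s * C.v * (s * s) by group, hs.1]
        group
      rw [show s * (C.t * C.v) * (s * (C.t * C.v)) = s * (C.t * C.v) * s * (C.t * C.v) by group,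
        hw, C.commute_t_v.eq, ← mul_assoc, C.v_sq, one_mul] at h
      exact C.t_ne h
  rcases C.mem_V_cases hV with e | e | e | e
  · left; rw [he, e, mul_one]
  · right; rw [he, e]
  · exact (hbad _ (Or.inl e) (by rw [← he]; exact hg.1)).elim
  · exact (hbad _ (Or.inr e) (by rw [← he]; exact hg.1)).elim

/-- All swappers are conjugate to `s`. -/
theorem isConj_swap {g : G} (hg : g ∈ C.Swap) : IsConj s g := by
  have hv := @swap_conj_v G Ω _ _ C _ hS s hs hst
  have hvi : C.v⁻¹ = C.v := inv_eq_of_mul_eq_one_right C.v_sq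
  have hst' : IsConj s (s * C.t) := by
    refine isConj_iff.2 ⟨C.v, ?_⟩
    calc C.v * s * C.v⁻¹ = C.v * (s * (C.v * (s * s))) := by rw [hvi, hs.1]; group
      _ = C.v * (s * C.v * s) * s := by group
      _ = C.v * (C.t * C.v) * s := by rw [hv]
      _ = C.t * (C.v * C.v) * s := by rw [← mul_assoc C.v, ← C.commute_t_v.eq]; group
      _ = s * C.t := by rw [C.v_sq, mul_one, hst]
  have hH : ∀ h ∈ C.H, g * h * g ∈ C.H := fun h hh => C.mem_H_iff.2
    ⟨by rw [mul_smul, mul_smul, hg.2, (C.mem_H_iff.1 hh).2, C.swap_smul_b hg],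
      by rw [mul_smul, mul_smul, C.swap_smul_b hg, (C.mem_H_iff.1 hh).1, hg.2]⟩
  have hVV : ∀ h ∈ C.V, g * h * g ∈ C.V := fun h hh => ⟨hH h hh.1, by
    rw [show g * h * g * (g * h * g) = g * h * (g * g) * h * g by group, hg.1, mul_one,
      mul_assoc g h h, hh.2, mul_one, hg.1]⟩
  obtain ⟨w, hw, hw1, hgw⟩ : ∃ w ∈ C.V, w ≠ 1 ∧ g * w * g = w := by
    by_cases h : g * C.t * g = C.t
    · exact ⟨C.t, C.t_mem_V, C.t_ne, h⟩
    · refine ⟨C.t * (g * C.t * g), C.V.mul_mem C.t_mem_V (hVV _ C.t_mem_V), fun e => h ?_, ?_⟩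
      · rw [← inv_eq_of_mul_eq_one_right e, inv_eq_of_mul_eq_one_right C.t_sq]
      · calc g * (C.t * (g * C.t * g)) * g = g * C.t * g * C.t * (g * g) := by group
          _ = _ := by
            rw [hg.1, mul_one, (C.commute_of_mem_V (hVV _ C.t_mem_V) C.t_mem_V).eq]
  obtain ⟨y, hy, hyt⟩ := C.isConj_t_of_mem hw.1 hw.2 hw1
  have hc : g * w = w * g := by
    conv_rhs => rw [← hgw]
    rw [mul_assoc (g * w), hg.1, mul_one]
  rw [← hyt] at hc
  have hg' : y⁻¹ * g * y ∈ C.Swap := ⟨by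
    rw [show y⁻¹ * g * y * (y⁻¹ * g * y) = y⁻¹ * (g * g) * y by group, hg.1, mul_one,
      inv_mul_cancel], by
    rw [mul_smul, mul_smul, (C.mem_H_iff.1 hy).1, hg.2, inv_smul_eq_iff, (C.mem_H_iff.1 hy).2]⟩
  have hgt' : y⁻¹ * g * y * C.t = C.t * (y⁻¹ * g * y) := by
    calc y⁻¹ * g * y * C.t = y⁻¹ * (g * (y * C.t * y⁻¹)) * y := by group
      _ = y⁻¹ * (y * C.t * y⁻¹ * g) * y := by rw [hc]
      _ = C.t * (y⁻¹ * g * y) := by group
  have hconj : IsConj (y⁻¹ * g * y) g := isConj_iff.2 ⟨y, by group⟩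
  rcases @swap_commute_t G Ω _ _ C _ hS s hs hst _ hg' hgt' with e | e
  · rwa [e] at hconj
  · rw [e] at hconj
    exact hst'.trans hconj

omit hst in
/-- The count of the swappers. -/
theorem card_swap [Finite G] (hst : s * C.t = C.t * s) : Nat.card C.Swap = 6 := by
  have hv := @swap_conj_v G Ω _ _ C _ hS s hs hst
  let f : ZMod 3 × Bool → G := fun p =>
    C.x ^ p.1.val * (if p.2 then s * C.t else s) * (C.x ^ p.1.val)⁻¹
  have hsw : ∀ y ∈ C.H, ∀ g ∈ C.Swap, y * g * y⁻¹ ∈ C.Swap := fun y hy g hg => by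
    have hy' := C.H.inv_mem hy
    refine ⟨?_, ?_⟩
    · rw [show y * g * y⁻¹ * (y * g * y⁻¹) = y * (g * g) * y⁻¹ by group, hg.1, mul_one,
        mul_inv_cancel]
    · rw [mul_smul, mul_smul, (C.mem_H_iff.1 hy').1, hg.2, (C.mem_H_iff.1 hy).2]
  have hbase : ∀ b : Bool, (if b then s * C.t else s) ∈ C.Swap := by
    intro b
    cases b
    · exact hs
    · refine ⟨?_, ?_⟩
      · simp only [↓reduceIte]
        rw [show s * C.t * (s * C.t) = s * (C.t * s) * C.t by group, ← hst, ← mul_assoc, hs.1,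
          one_mul, C.t_sq]
      · simp only [↓reduceIte]
        rw [mul_smul, (C.mem_H_iff.1 C.t_mem).1, hs.2]
  have hmem : ∀ p, f p ∈ C.Swap := fun p => hsw _ (C.H.pow_mem C.x_mem _) _ (hbase p.2)
  -- the element of `V` centralised by `f (i, b)` is `x^i t x^{-i}`
  have hbc : ∀ b : Bool, (if b then s * C.t else s) * C.t = C.t * (if b then s * C.t else s) := by
    intro b
    cases b
    · exact hst
    · simp only [↓reduceIte]
      rw [mul_assoc, C.t_sq, mul_one, ← mul_assoc, ← hst, mul_assoc, C.t_sq, mul_one]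
  have hcent : ∀ p, Commute (f p) (C.x ^ p.1.val * C.t * (C.x ^ p.1.val)⁻¹) := fun p => by
    show f p * _ = _ * f p
    simp only [f]
    calc _ = C.x ^ p.1.val * ((if p.2 then s * C.t else s) * C.t) * (C.x ^ p.1.val)⁻¹ := by group
      _ = C.x ^ p.1.val * (C.t * (if p.2 then s * C.t else s)) * (C.x ^ p.1.val)⁻¹ := by rw [hbc]
      _ = _ := by group
  have hx : ∀ i j : ZMod 3, i ≠ j →
      x0 ^ i.val * t0 * (x0 ^ i.val)⁻¹ ≠ x0 ^ j.val * t0 * (x0 ^ j.val)⁻¹ := by decide +kernel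
  have huniq : ∀ g ∈ C.Swap, ∀ w w' : A4, w * w = 1 → w ≠ 1 → w' * w' = 1 → w' ≠ 1 → w ≠ w' →
      ¬ (Commute g (C.ι w) ∧ Commute g (C.ι w')) := by
    intro g hg w w' hw hw1 hw' hw1' hne hc
    have hall : ∀ z : A4, z * z = 1 → Commute g (C.ι z) := fun z hz => by
      rcases four_cases w w' hw hw1 hw' hw1' hne z hz with rfl | rfl | rfl | rfl
      · rw [map_one]; exact Commute.one_right g
      · exact hc.1
      · exact hc.2
      · rw [map_mul]; exact hc.1.mul_right hc.2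
    exact hS g hg.2 (C.swap_smul_b hg) ⟨hall t0 facts.1, hall v0 facts.2.2.1⟩
  have hxt : ∀ i : ZMod 3, x0 ^ i.val * t0 * (x0 ^ i.val)⁻¹ * (x0 ^ i.val * t0 * (x0 ^ i.val)⁻¹) = 1
      ∧ x0 ^ i.val * t0 * (x0 ^ i.val)⁻¹ ≠ 1 := by decide +kernel
  have hι : ∀ i : ZMod 3, C.ι (x0 ^ i.val * t0 * (x0 ^ i.val)⁻¹) =
      C.x ^ i.val * C.t * (C.x ^ i.val)⁻¹ := fun i => by
    rw [map_mul, map_mul, map_inv, map_pow]; rfl
  have hinj : Function.Injective f := by
    rintro ⟨i, b⟩ ⟨j, c⟩ e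
    have hij : i = j := by
      by_contra hne
      refine huniq (f (i, b)) (hmem _) _ _ (hxt i).1 (hxt i).2 (hxt j).1 (hxt j).2 (hx i j hne)
        ⟨by rw [hι]; exact hcent (i, b), by rw [hι, e]; exact hcent (j, c)⟩
    subst hij
    have e' : (if b then s * C.t else s) = (if c then s * C.t else s) :=
      mul_left_cancel (mul_right_cancel e)
    cases b <;> cases c <;> first | rfl | skip
    · exact absurd (by simpa using e') C.t_ne
    · exact absurd (by simpa using e'.symm) C.t_ne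
  have hsurj : ∀ g ∈ C.Swap, ∃ p, f p = g := by
    intro g hg
    have hH : ∀ h ∈ C.H, g * h * g ∈ C.H := fun h hh => C.mem_H_iff.2
      ⟨by rw [mul_smul, mul_smul, hg.2, (C.mem_H_iff.1 hh).2, C.swap_smul_b hg],
        by rw [mul_smul, mul_smul, C.swap_smul_b hg, (C.mem_H_iff.1 hh).1, hg.2]⟩
    have hVV : ∀ h ∈ C.V, g * h * g ∈ C.V := fun h hh => ⟨hH h hh.1, by
      rw [show g * h * g * (g * h * g) = g * h * (g * g) * h * g by group, hg.1, mul_one,
        mul_assoc g h h, hh.2, mul_one, hg.1]⟩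
    obtain ⟨w, hw, hw1, hgw⟩ : ∃ w ∈ C.V, w ≠ 1 ∧ g * w * g = w := by
      by_cases h : g * C.t * g = C.t
      · exact ⟨C.t, C.t_mem_V, C.t_ne, h⟩
      · refine ⟨C.t * (g * C.t * g), C.V.mul_mem C.t_mem_V (hVV _ C.t_mem_V), fun e => h ?_, ?_⟩
        · rw [← inv_eq_of_mul_eq_one_right e, inv_eq_of_mul_eq_one_right C.t_sq]
        · calc g * (C.t * (g * C.t * g)) * g = g * C.t * g * C.t * (g * g) := by group
            _ = _ := by
              rw [hg.1, mul_one, (C.commute_of_mem_V (hVV _ C.t_mem_V) C.t_mem_V).eq]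
    obtain ⟨y, rfl⟩ := C.exists_ι hw.1
    have hy2 : y * y = 1 := C.ι_injective (by rw [map_mul, hw.2, map_one])
    have hy1 : y ≠ 1 := fun h => hw1 (by rw [h, map_one])
    have hall : ∀ y : A4, y * y = 1 → y ≠ 1 →
        ∃ i : ZMod 3, y = x0 ^ i.val * t0 * (x0 ^ i.val)⁻¹ := by decide +kernel
    obtain ⟨i, rfl⟩ := hall y hy2 hy1
    rw [hι] at hgw
    set z := C.x ^ i.val
    have hz : z ∈ C.H := C.H.pow_mem C.x_mem _
    have hg' := hsw _ (C.H.inv_mem hz) g hg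
    rw [inv_inv] at hg'
    have hc : g * (z * C.t * z⁻¹) = z * C.t * z⁻¹ * g := by
      conv_rhs => rw [← hgw]
      rw [mul_assoc (g * _), hg.1, mul_one]
    have hgt' : z⁻¹ * g * z * C.t = C.t * (z⁻¹ * g * z) := by
      calc z⁻¹ * g * z * C.t = z⁻¹ * (g * (z * C.t * z⁻¹)) * z := by group
        _ = z⁻¹ * (z * C.t * z⁻¹ * g) * z := by rw [hc]
        _ = C.t * (z⁻¹ * g * z) := by group
    have hback : g = z * (z⁻¹ * g * z) * z⁻¹ := by group
    rcases @swap_commute_t G Ω _ _ C _ hS s hs hst _ hg' hgt' with e | e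
    · exact ⟨(i, false), by rw [hback, e]; rfl⟩
    · exact ⟨(i, true), by rw [hback, e]; rfl⟩
  rw [← Nat.card_eq_of_bijective (fun p => (⟨f p, hmem p⟩ : C.Swap))
    ⟨fun p q e => hinj (congrArg Subtype.val e), fun g => by
      obtain ⟨p, hp⟩ := hsurj g g.2
      exact ⟨p, Subtype.ext hp⟩⟩]
  simp

end Sym

/-- In the symmetric case every swapper is conjugate to `t` and `N = 6`. -/
theorem sym_swap [Finite G] [FaithfulSMul G Ω] (hS : C.IsSym) :
    (∀ g ∈ C.Swap, IsConj C.t g) ∧ C.N = 6 := by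
  obtain ⟨s, hs, hst, hts⟩ := C.exists_swap_commute hS
  have hall : ∀ g ∈ C.Swap, IsConj C.t g := fun g hg => hts.trans (C.isConj_swap hS hs hst hg)
  refine ⟨hall, ?_⟩
  rw [← C.card_swap hS hs hst]
  exact Nat.card_congr (Equiv.subtypeEquivRight fun g => ⟨fun h => h.1, fun h => ⟨h, hall g h⟩⟩)

/-- In the symmetric case all involutions are conjugate. -/
theorem sym_isConj [Finite G] [FaithfulSMul G Ω] (hS : C.IsSym) {i : G} (hi : i * i = 1)
    (hi1 : i ≠ 1) : IsConj C.t i := by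
  obtain ⟨c, hc⟩ : ∃ c : Ω, i • c ≠ c := by
    by_contra h
    push Not at h
    exact hi1 (eq_of_smul_eq_smul (α := Ω) fun c => by rw [h c, one_smul])
  obtain ⟨g, ga, gb⟩ := C.trans c (i • c) (Ne.symm hc)
  have hs : g⁻¹ * i * g ∈ C.Swap := ⟨by
    rw [show g⁻¹ * i * g * (g⁻¹ * i * g) = g⁻¹ * (i * i) * g by group, hi, mul_one,
      inv_mul_cancel], by rw [mul_smul, mul_smul, ga, inv_smul_eq_iff, gb]⟩
  exact ((C.sym_swap hS).1 _ hs).trans (isConj_iff.2 ⟨g, by group⟩)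

end CfsgLib.TwoPointAltFour.Ctx
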